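import Cfsg.Agent.Lib.Helper17.CentGen

/-!
# Centralizers of the involutions `x_47(1)x_44(1)` and `x_39(1)x_45(1)` of `F₄(q)`, `q` even (helper17)
-/

set_option autoImplicit false

namespace Cfsg.Agent.Lib.Helper17.F4C

open Cfsg.Lie Cfsg.Agent.Lib.Helper18 Cfsg.Agent.Lib.Helper17 Cfsg.Agent.Lib.Helper36
  Cfsg.Agent.Lib.Helper6 Matrix Cfsg.Agent.Lib.Helper17.CG

variable {F : Type*} [Field F] (hB : Base chevF4 F)

theorem hD4 : chevF4 ∈ [chevG2, chevB2, chevD4, chevF4, chevE6, chevE7, chevE8] := by simp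

/-- the structure constants of the pair are even -/
def okPair (r s : ℕ) : Bool :=
  decide (s = r) || (decide (s ≠ r) && decide (s ≠ chevF4.neg r) &&
    (chevF4.commTerms r s).all fun c => decide ((2 : ℤ) ∣ c.2.1))

theorem cm [CharP F 2] {r s : ℕ} (hr : r < 48) (hs : s < 48) (h : okPair r s = true) (t u : F) :
    hB.xg r t * hB.xg s u = hB.xg s u * hB.xg r t := by
  apply comm_dvd hB (m := 2) (CharP.cast_eq_zero F 2) hr hs
  unfold okPair at h
  simp only [Bool.or_eq_true, Bool.and_eq_true, decide_eq_true_eq, List.all_eq_true] at h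
  rcases h with h | ⟨⟨h1, h2⟩, h3⟩
  · exact Or.inl h
  · exact Or.inr ⟨h1, h2, fun c hc => by exact_mod_cast h3 c hc⟩

/-- the support -/
def S6 : List ℕ := [39, 40, 44, 45, 46, 47]

theorem S6_pos : ∀ r ∈ S6, chevF4.IsPosRoot r := by decide +kernel
theorem S6_sorted : S6.Pairwise (· < ·) := by decide
theorem S6_nodup : S6.Nodup := by decide
theorem S6_lt : ∀ r ∈ S6, r < 48 := by decide

theorem tabPC : ∀ s ∈ S6, ∀ s' ∈ S6, okPair s s' = true := by decide +kernel

theorem pc6 [CharP F 2] : PC hB S6 := fun s hs s' hs' t u =>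
  cm hB (S6_lt s hs) (S6_lt s' hs') (tabPC s hs s' hs') t u

/-- the effect of the conjugation by `x_r(t)` on the coefficients -/
def stp (r : ℕ) (t : F) (c : ℕ → F) : ℕ → F :=
  if r = 24 then upd c 47 (t * c 46) else if r = 25 then upd c 46 (t * c 45)
  else if r = 26 then upd c 47 (t * c 45) else if r = 27 then upd c 40 (t * c 39)
  else if r = 33 then upd c 44 (t * c 40) else if r = 34 then upd c 44 (t * c 39) else c

theorem special [CharP F 2] {r s₀ k : ℕ} (hr : r < 48) (hs₀ : s₀ ∈ S6) (hk : k ∈ S6)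
    (h1 : ∀ s ∈ S6, s ≠ s₀ → okPair r s = true) (h2 : chevF4.commTerms r s₀ = [(k, 1, 1, 1)])
    (h3 : s₀ ≠ r) (h4 : s₀ ≠ chevF4.neg r) (t : F) (c : ℕ → F) :
    hB.xg r t * lp hB S6 c * (hB.xg r t)⁻¹ = lp hB S6 (upd c k (t * c s₀)) := by
  rw [lp_conj_special hB S6_nodup hs₀ t (fun s hs hne u => cm hB hr (S6_lt s hs) (h1 s hs hne) t u)
    (fun u => conj_single hB hr (S6_lt s₀ hs₀) h3 h4 h2 t u) (fun s hs e u => pc6 hB k hk s hs e u) c,
    lp_mul_single hB S6_nodup hk (fun s hs e u => pc6 hB k hk s hs e u)]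

theorem tabNS : ∀ r : Fin 48, chevF4.IsPosRoot r → r.val ∉ [24, 25, 26, 27, 33, 34] →
    ∀ s ∈ S6, okPair r s = true := by decide +kernel

theorem hstp [CharP F 2] (r : ℕ) (hr : chevF4.IsPosRoot r) (t : F) (c : ℕ → F) :
    hB.xg r t * lp hB S6 c * (hB.xg r t)⁻¹ = lp hB S6 (stp r t c) := by
  unfold stp
  split_ifs with h24 h25 h26 h27 h33 h34
  · subst h24
    exact special hB (by norm_num) (by decide) (by decide) (by decide +kernel) (by decide +kernel) (by decide)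
      (by decide +kernel) t c
  · subst h25
    exact special hB (by norm_num) (by decide) (by decide) (by decide +kernel) (by decide +kernel) (by decide)
      (by decide +kernel) t c
  · subst h26
    exact special hB (by norm_num) (by decide) (by decide) (by decide +kernel) (by decide +kernel) (by decide)
      (by decide +kernel) t c
  · subst h27
    exact special hB (by norm_num) (by decide) (by decide) (by decide +kernel) (by decide +kernel) (by decide)
      (by decide +kernel) t c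
  · subst h33
    exact special hB (by norm_num) (by decide) (by decide) (by decide +kernel) (by decide +kernel) (by decide)
      (by decide +kernel) t c
  · subst h34
    exact special hB (by norm_num) (by decide) (by decide) (by decide +kernel) (by decide +kernel) (by decide)
      (by decide +kernel) t c
  · apply lp_conj_triv
    intro s hs u
    exact cm hB hr.1 (S6_lt s hs) (tabNS ⟨r, hr.1⟩ hr (by simp [h24, h25, h26, h27, h33, h34]) s hs) t u

theorem stp_39 (r : ℕ) (t : F) (c : ℕ → F) : stp r t c 39 = c 39 := by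
  unfold stp
  split_ifs <;> simp [upd]

theorem stp_45 (r : ℕ) (t : F) (c : ℕ → F) : stp r t c 45 = c 45 := by
  unfold stp
  split_ifs <;> simp [upd]

theorem fold_inv (L : List ℕ) (d c : ℕ → F) :
    (L.foldr (fun r c => stp r (d r) c) c) 39 = c 39 ∧ (L.foldr (fun r c => stp r (d r) c) c) 45 = c 45 := by
  induction L with
  | nil => exact ⟨rfl, rfl⟩
  | cons r L ih =>
    simp only [List.foldr_cons]
    rw [stp_39, stp_45]
    exact ih

theorem posRoots_pos : ∀ r ∈ chevF4.posRoots, chevF4.IsPosRoot r := fun _ hr => mem_posRoots.mp hr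

/-- conjugation by `U` -/
theorem U_conj [CharP F 2] {u : GL chevF4.Idx F} (hu : u ∈ chevF4.posUnipotent F) (c : ℕ → F) :
    ∃ c' : ℕ → F, u * lp hB S6 c * u⁻¹ = lp hB S6 c' ∧ c' 39 = c 39 ∧ c' 45 = c 45 := by
  obtain ⟨d, rfl⟩ := U_form hB hD4 hu
  rw [lp_conj_fold hB stp (hstp hB) _ posRoots_pos]
  exact ⟨_, rfl, (fold_inv _ d c).1, (fold_inv _ d c).2⟩

/-! ### the Weyl group analysis -/

def Y0 : List (List ℕ) := [[], [2, 1, 2, 0, 1, 2, 3, 0, 1, 0], [2, 1, 2, 0, 1, 2], [3, 2, 1, 2], [3, 2, 1, 2, 0]]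

theorem tabY : ∀ L ∈ Y0, (∀ i ∈ L, i < chevF4.rank) ∧ ∀ s ∈ S6, chevF4.IsPosRoot (wAct chevF4 L s) := by
  decide +kernel

theorem tabC : ∀ q : Fin 48, (∀ L ∈ Y0, chevF4.IsPosRoot (wAct chevF4 L q)) → q.val ∈ S6 := by
  decide +kernel

theorem mem_S6 [CharP F 2] {n : GL chevF4.Idx F} {π : ℕ → ℕ} (hn : GAct hB n π) {c c' : ℕ → F}
    (h : n * lp hB S6 c * n⁻¹ = lp hB S6 c') {s : ℕ} (hs : s ∈ S6) (hc : c s ≠ 0) : π s ∈ S6 := by
  refine tabC ⟨π s, (hn s (S6_lt s hs)).1⟩ fun L hL => ?_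
  exact pos_of_word hB hD4 hn S6_pos S6_sorted (pc6 hB) h (tabY L hL).1 (tabY L hL).2 s hs hc

theorem tabFix : ∀ i ∈ S6, ∀ j ∈ S6, ∀ i' ∈ S6, ∀ j' ∈ S6,
    chevF4.pairing i j = chevF4.pairing 39 45 → chevF4.pairing j i = chevF4.pairing 45 39 →
    chevF4.pairing i 39 = chevF4.pairing 39 i' → chevF4.pairing 39 i = chevF4.pairing i' 39 →
    chevF4.pairing i 45 = chevF4.pairing 39 j' → chevF4.pairing 45 i = chevF4.pairing j' 39 →
    chevF4.pairing j 39 = chevF4.pairing 45 i' → chevF4.pairing 39 j = chevF4.pairing i' 45 →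
    chevF4.pairing j 45 = chevF4.pairing 45 j' → chevF4.pairing 45 j = chevF4.pairing j' 45 →
    (i = 39 ∧ j = 45) ∨ (i = 45 ∧ j = 39) := by
  decide +kernel

theorem tabShort : ∀ x : Fin 48, chevF4.pairing 45 x = chevF4.pairing 39 47 →
    chevF4.pairing x 45 = chevF4.pairing 47 39 → False := by
  decide +kernel

/-- the claimed centralizer -/
def K2 (F : Type*) [Field F] : Subgroup (GL chevF4.Idx F) :=
  chevF4.rootSubgroup F 33 ⊔ chevF4.rootSubgroup F 14 ⊔ chevF4.rootSubgroup F 24 ⊔ chevF4.rootSubgroup F 23 ⊔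
    Subgroup.closure {g : GL chevF4.Idx F | ∃ (r : ℕ) (c : F), chevF4.IsPosRoot r ∧ r ∉ [27, 25, 34, 26] ∧
      (g : Matrix chevF4.Idx chevF4.Idx F) = chevF4.x F r c}

theorem x33_mem (t : F) : hB.xg 33 t ∈ K2 F :=
  Subgroup.mem_sup_left (Subgroup.mem_sup_left (Subgroup.mem_sup_left (Subgroup.mem_sup_left (hB.xg_mem_root 33 t))))
theorem x14_mem (t : F) : hB.xg 14 t ∈ K2 F :=
  Subgroup.mem_sup_left (Subgroup.mem_sup_left (Subgroup.mem_sup_left (Subgroup.mem_sup_right (hB.xg_mem_root 14 t))))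
theorem x24_mem (t : F) : hB.xg 24 t ∈ K2 F :=
  Subgroup.mem_sup_left (Subgroup.mem_sup_left (Subgroup.mem_sup_right (hB.xg_mem_root 24 t)))
theorem x23_mem (t : F) : hB.xg 23 t ∈ K2 F :=
  Subgroup.mem_sup_left (Subgroup.mem_sup_right (hB.xg_mem_root 23 t))
theorem xpos_mem {r : ℕ} (hr : chevF4.IsPosRoot r) (h : r ∉ [27, 25, 34, 26]) (t : F) : hB.xg r t ∈ K2 F :=
  Subgroup.mem_sup_right (Subgroup.subset_closure ⟨r, t, hr, h, rfl⟩)

theorem ng0_mem (t : F) : hB.ng (chevF4.simple 0) t ∈ K2 F := by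
  unfold Base.ng
  have e1 : chevF4.simple 0 = 33 := by decide +kernel
  have e2 : chevF4.neg 33 = 14 := by decide +kernel
  rw [e1, e2]
  exact mul_mem (mul_mem (x33_mem hB _) (x14_mem hB _)) (x33_mem hB _)

theorem ng3_mem (t : F) : hB.ng (chevF4.simple 3) t ∈ K2 F := by
  unfold Base.ng
  have e1 : chevF4.simple 3 = 24 := by decide +kernel
  have e2 : chevF4.neg 24 = 23 := by decide +kernel
  rw [e1, e2]
  exact mul_mem (mul_mem (x24_mem hB _) (x23_mem hB _)) (x24_mem hB _)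

theorem hg0_mem (t : F) : hB.hg (chevF4.simple 0) t ∈ K2 F := by
  unfold Base.hg
  exact mul_mem (ng0_mem hB _) (ng0_mem hB _)

theorem hg3_mem (t : F) : hB.hg (chevF4.simple 3) t ∈ K2 F := by
  unfold Base.hg
  exact mul_mem (ng3_mem hB _) (ng3_mem hB _)

theorem root_le {r : ℕ} {S : Subgroup (GL chevF4.Idx F)} (h : ∀ t : F, hB.xg r t ∈ S) :
    chevF4.rootSubgroup F r ≤ S := by
  intro g hg
  rw [← SetLike.mem_coe, hB.rootSubgroup_eq] at hg
  obtain ⟨t, rfl⟩ := hg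
  exact h t

theorem tabK : ∀ r : Fin 48, ((chevF4.IsPosRoot r ∧ r.val ∉ [27, 25, 34, 26]) ∨ r.val = 14 ∨ r.val = 23) →
    okPair r 39 = true ∧ okPair r 45 = true := by decide +kernel

theorem K2_le [CharP F 2] : K2 F ≤ chevF4.group F ⊓ Subgroup.centralizer {hB.xg 39 1 * hB.xg 45 1} := by
  have key : ∀ r (hr : r < 48), ((chevF4.IsPosRoot r ∧ r ∉ [27, 25, 34, 26]) ∨ r = 14 ∨ r = 23) → ∀ t : F,
      hB.xg r t ∈ chevF4.group F ⊓ Subgroup.centralizer {hB.xg 39 1 * hB.xg 45 1} := by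
    intro r hr h t
    refine Subgroup.mem_inf.mpr ⟨hB.xg_mem_group hr t, ?_⟩
    rw [Subgroup.mem_centralizer_singleton_iff]
    have h1 := cm hB hr (by norm_num) (tabK ⟨r, hr⟩ h).1 t 1
    have h2 := cm hB hr (by norm_num) (tabK ⟨r, hr⟩ h).2 t 1
    rw [← mul_assoc, h1, mul_assoc, h2, mul_assoc]
  unfold K2
  refine sup_le (sup_le (sup_le (sup_le ?_ ?_) ?_) ?_) ?_
  · exact root_le hB (key 33 (by norm_num) (Or.inl (by decide +kernel)))
  · exact root_le hB (key 14 (by norm_num) (Or.inr (Or.inl rfl)))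
  · exact root_le hB (key 24 (by norm_num) (Or.inl (by decide +kernel)))
  · exact root_le hB (key 23 (by norm_num) (Or.inr (Or.inr rfl)))
  · rw [Subgroup.closure_le]
    rintro g ⟨r, c, hr, hn, hg⟩
    rw [hB.eq_xg hg]
    exact key r hr.1 (Or.inl ⟨hr, hn⟩) c

theorem lp_mem {D : ChevalleyDatum} (hB : Base D F) (K : Subgroup (GL D.Idx F)) {L : List ℕ} {c : ℕ → F}
    (h : ∀ s ∈ L, c s ≠ 0 → hB.xg s (c s) ∈ K) : lp hB L c ∈ K := by
  induction L with
  | nil => simp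
  | cons k L ih =>
    rw [lp_cons]
    refine mul_mem ?_ (ih fun s hs => h s (by simp [hs]))
    by_cases hc : c k = 0
    · rw [hc, hB.xg_zero]; exact one_mem _
    · exact h k (by simp) hc

theorem tabJ : ∀ i : Fin 4, ¬ (i.val = 0 ∨ i.val = 3) → ∀ q : Fin 48, chevF4.IsNegRoot q →
    ¬ (∀ r ∈ [39, 45], chevF4.pairing q r = chevF4.pairing (chevF4.simple i) r) := by decide +kernel

theorem tabJ2 : ∀ i : Fin 4, (i.val = 0 ∨ i.val = 3) → ∀ r ∈ [39, 45], chevF4.reflectRoot i r = r := by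
  decide +kernel

theorem tabUm : ∀ r q : Fin 48, chevF4.IsPosRoot r → chevF4.IsNegRoot q →
    chevF4.pairing q 39 = chevF4.pairing r 39 → chevF4.pairing q 45 = chevF4.pairing r 45 →
    chevF4.pairing 39 q = chevF4.pairing 39 r → chevF4.pairing 45 q = chevF4.pairing 45 r →
    r.val = 24 ∨ r.val = 33 := by decide +kernel

/-- the coefficients of `x_39(a) x_45(b)` -/
def cv (a b : F) : ℕ → F := fun s => if s = 39 then a else if s = 45 then b else 0

theorem lp_cv (a b : F) : lp hB S6 (cv a b) = hB.xg 39 a * hB.xg 45 b := by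
  simp [S6, cv]

theorem posRoots_eq : chevF4.posRoots = [24, 25, 26, 27, 28, 29, 30, 31, 32, 33, 34, 35, 36, 37, 38, 39, 40, 41,
    42, 43, 44, 45, 46, 47] := by decide +kernel

theorem stp_ns (r : ℕ) (h : r ∉ [24, 25, 26, 27, 33, 34]) (t : F) (c : ℕ → F) : stp r t c = c := by
  simp only [List.mem_cons, List.not_mem_nil, or_false, not_or] at h
  obtain ⟨h1, h2, h3, h4, h5, h6⟩ := h
  unfold stp
  rw [if_neg h1, if_neg h2, if_neg h3, if_neg h4, if_neg h5, if_neg h6]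

theorem fold_eq (d c : ℕ → F) : chevF4.posRoots.foldr (fun r c => stp r (d r) c) c =
    stp 24 (d 24) (stp 25 (d 25) (stp 26 (d 26) (stp 27 (d 27) (stp 33 (d 33) (stp 34 (d 34) c))))) := by
  rw [posRoots_eq]
  simp only [List.foldr_cons, List.foldr_nil]
  rw [stp_ns 47 (by decide), stp_ns 46 (by decide), stp_ns 45 (by decide), stp_ns 44 (by decide),
    stp_ns 43 (by decide), stp_ns 42 (by decide), stp_ns 41 (by decide), stp_ns 40 (by decide),
    stp_ns 39 (by decide), stp_ns 38 (by decide), stp_ns 37 (by decide), stp_ns 36 (by decide),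
    stp_ns 35 (by decide), stp_ns 32 (by decide), stp_ns 31 (by decide), stp_ns 30 (by decide),
    stp_ns 29 (by decide), stp_ns 28 (by decide)]

theorem stp24 (t : F) (c : ℕ → F) : stp 24 t c = upd c 47 (t * c 46) := rfl
theorem stp25 (t : F) (c : ℕ → F) : stp 25 t c = upd c 46 (t * c 45) := rfl
theorem stp26 (t : F) (c : ℕ → F) : stp 26 t c = upd c 47 (t * c 45) := rfl
theorem stp27 (t : F) (c : ℕ → F) : stp 27 t c = upd c 40 (t * c 39) := rfl
theorem stp33 (t : F) (c : ℕ → F) : stp 33 t c = upd c 44 (t * c 40) := rfl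
theorem stp34 (t : F) (c : ℕ → F) : stp 34 t c = upd c 44 (t * c 39) := rfl

/-- evaluation of the conjugation by an element of `U` -/
theorem fold_eval (d : ℕ → F) (a b : F) :
    (chevF4.posRoots.foldr (fun r c => stp r (d r) c) (cv a b)) 39 = a ∧
    (chevF4.posRoots.foldr (fun r c => stp r (d r) c) (cv a b)) 45 = b ∧
    (chevF4.posRoots.foldr (fun r c => stp r (d r) c) (cv a b)) 40 = d 27 * a ∧
    (chevF4.posRoots.foldr (fun r c => stp r (d r) c) (cv a b)) 44 = d 34 * a ∧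
    (chevF4.posRoots.foldr (fun r c => stp r (d r) c) (cv a b)) 46 = d 25 * b ∧
    (chevF4.posRoots.foldr (fun r c => stp r (d r) c) (cv a b)) 47 = d 26 * b + d 24 * (d 25 * b) := by
  rw [fold_eq, stp24, stp25, stp26, stp27, stp33, stp34]
  simp [upd, cv]

/-- The centralizer of `x_39(1) x_45(1)`. -/
theorem centralizer_v [CharP F 2] (v : GL chevF4.Idx F)
    (hv : (v : Matrix chevF4.Idx chevF4.Idx F) = chevF4.x F 39 1 * chevF4.x F 45 1) :
    chevF4.group F ⊓ Subgroup.centralizer {v} = K2 F := by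
  have hD := hD4
  have hB := base_of_mem F hD
  have hT := tabs2_of_mem hD
  have hTt := hT.tab
  let X := bnData_of_mem F hD
  have hv' : v = hB.xg 39 1 * hB.xg 45 1 := Units.ext (by rw [hv]; simp [Units.val_mul, Base.coe_xg])
  rw [hv']
  apply le_antisymm _ (K2_le hB)
  intro g hgc
  obtain ⟨hg, hc⟩ := Subgroup.mem_inf.mp hgc
  rw [Subgroup.mem_centralizer_singleton_iff] at hc
  have hKc : ∀ z ∈ K2 F, z * (hB.xg 39 1 * hB.xg 45 1) = (hB.xg 39 1 * hB.xg 45 1) * z := by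
    intro z hz
    have := (Subgroup.mem_inf.mp (K2_le hB hz)).2
    rwa [Subgroup.mem_centralizer_singleton_iff] at this
  rw [← lp_cv hB] at hc hKc
  obtain ⟨b, hb, n, hn, u, hu, rfl⟩ := X.bruhat_normal_exists hg
  obtain ⟨u₁, hu₁, h₁, hh₁, rfl⟩ := hB.mem_B_iff.mp hb
  have hu' := Um_le_U n hu
  have hn' : h₁ * n ∈ chevF4.monomialSubgroup F := mul_mem (Base.H_le_N hh₁) hn
  obtain ⟨c, ea, c39, c45⟩ := U_conj hB hu' (cv 1 1)
  obtain ⟨c', ea', c39', c45'⟩ := U_conj hB (inv_mem hu₁) (cv 1 1)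
  rw [inv_inv] at ea'
  have hcv39 : cv (1 : F) 1 39 = 1 := by simp [cv]
  have hcv45 : cv (1 : F) 1 45 = 1 := by simp [cv]
  rw [hcv39] at c39 c39'
  rw [hcv45] at c45 c45'
  have hmain : (h₁ * n) * lp hB S6 c * (h₁ * n)⁻¹ = lp hB S6 c' := by
    rw [← ea, ← ea']
    calc (h₁ * n) * (u * lp hB S6 (cv 1 1) * u⁻¹) * (h₁ * n)⁻¹
        = u₁⁻¹ * ((u₁ * h₁ * n * u) * lp hB S6 (cv 1 1)) * u⁻¹ * n⁻¹ * h₁⁻¹ := by group
      _ = u₁⁻¹ * (lp hB S6 (cv 1 1) * (u₁ * h₁ * n * u)) * u⁻¹ * n⁻¹ * h₁⁻¹ := by rw [hc]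
      _ = _ := by group
  have hmain' : (h₁ * n)⁻¹ * lp hB S6 c' * ((h₁ * n)⁻¹)⁻¹ = lp hB S6 c := by
    rw [← hmain]; group
  let w : ↥X.P.N := ⟨⟨h₁ * n, hB.N_le_group hTt hn'⟩, (X.mem_N_iff _).2 hn'⟩
  obtain ⟨π, π', hAct, hAct', hpr, hinv, hσ⟩ := exists_act X w
  have hAct : GAct hB (h₁ * n) π := hAct
  have hAct' : GAct hB (h₁ * n)⁻¹ π' := hAct'
  have m39 : (39 : ℕ) ∈ S6 := by decide
  have m45 : (45 : ℕ) ∈ S6 := by decide
  have hi := mem_S6 hB hAct hmain m39 (by rw [c39]; exact one_ne_zero)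
  have hj := mem_S6 hB hAct hmain m45 (by rw [c45]; exact one_ne_zero)
  have hi' := mem_S6 hB hAct' hmain' m39 (by rw [c39']; exact one_ne_zero)
  have hj' := mem_S6 hB hAct' hmain' m45 (by rw [c45']; exact one_ne_zero)
  have l39 : (39 : ℕ) < chevF4.nroots := by decide +kernel
  have l45 : (45 : ℕ) < chevF4.nroots := by decide +kernel
  have l47 : (47 : ℕ) < chevF4.nroots := by decide +kernel
  have li' : π' 39 < chevF4.nroots := S6_lt _ hi'
  have lj' : π' 45 < chevF4.nroots := S6_lt _ hj'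
  have hfix2 : π 39 = 39 ∧ π 45 = 45 := by
    have q1 := hpr 39 (π' 39) l39 li'
    have q2 := hpr (π' 39) 39 li' l39
    have q3 := hpr 39 (π' 45) l39 lj'
    have q4 := hpr (π' 45) 39 lj' l39
    have q5 := hpr 45 (π' 39) l45 li'
    have q6 := hpr (π' 39) 45 li' l45
    have q7 := hpr 45 (π' 45) l45 lj'
    have q8 := hpr (π' 45) 45 lj' l45
    rw [hinv 39 l39] at q1 q2 q5 q6
    rw [hinv 45 l45] at q3 q4 q7 q8
    rcases tabFix _ hi _ hj _ hi' _ hj' (hpr 39 45 l39 l45) (hpr 45 39 l45 l39) q1 q2 q3 q4 q5 q6 q7 q8 with h | h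
    · exact h
    · exfalso
      have r1 := hpr 39 47 l39 l47
      have r2 := hpr 47 39 l47 l39
      rw [h.1] at r1 r2
      exact tabShort ⟨π 47, (hAct 47 l47).1⟩ r1 r2
  have hR : ∀ r ∈ [39, 45], r < chevF4.nroots := by decide +kernel
  have hfix : ∀ r (hr : r ∈ [39, 45]), X.σ w ⟨r, hR r hr⟩ = ⟨r, hR r hr⟩ := by
    intro r hr
    apply Fin.ext
    rw [← hσ r (hR r hr)]
    simp only [List.mem_cons, List.not_mem_nil, or_false] at hr
    rcases hr with rfl | rfl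
    · exact hfix2.1
    · exact hfix2.2
  obtain ⟨h, hh, y, hy, e⟩ := mem_of_fix2 X [39, 45] hR (fun i => i = 0 ∨ i = 3)
    (fun i hi hJ q hq => tabJ ⟨i, hi⟩ hJ ⟨q, hq.1⟩ hq)
    (fun i hi hJ => tabJ2 ⟨i, hi⟩ hJ) (K2 F)
    (fun i _ hJ => by
      rcases hJ with rfl | rfl
      · exact ng0_mem hB 1
      · exact ng3_mem hB 1) _ w rfl hfix
  have e' : h₁ * n = h * y := e
  have hUm : Um chevF4 F (h₁ * n) ≤ K2 F := by
    apply Um_le_of hB hT hAct
    intro r hr hneg τ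
    have r1 := hpr r 39 hr.1 l39
    have r2 := hpr r 45 hr.1 l45
    have r3 := hpr 39 r l39 hr.1
    have r4 := hpr 45 r l45 hr.1
    rw [hfix2.1] at r1 r3
    rw [hfix2.2] at r2 r4
    rcases tabUm ⟨r, hr.1⟩ ⟨π r, hneg.1⟩ hr hneg r1 r2 r3 r4 with h | h
    · have : r = 24 := h
      rw [this]; exact x24_mem hB τ
    · have : r = 33 := h
      rw [this]; exact x33_mem hB τ
  have huK : u ∈ K2 F := by
    apply hUm
    have := Um_mul_le hB (n := h₁ * n) (inv_mem hh₁)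
    rw [inv_mul_cancel_left] at this
    exact this hu
  have hzK : y * u ∈ K2 F := mul_mem hy huK
  have hg' : u₁ * h₁ * n * u = (u₁ * h) * (y * u) := by
    calc u₁ * h₁ * n * u = u₁ * (h₁ * n) * u := by group
      _ = _ := by rw [e']; group
  rw [hg'] at hc ⊢
  refine mul_mem ?_ hzK
  have hc2 : (u₁ * h) * lp hB S6 (cv 1 1) * (u₁ * h)⁻¹ = lp hB S6 (cv 1 1) := by
    have e1 := hKc _ hzK
    have e2 : (u₁ * h) * lp hB S6 (cv 1 1) * (y * u) = lp hB S6 (cv 1 1) * (u₁ * h) * (y * u) := by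
      calc (u₁ * h) * lp hB S6 (cv 1 1) * (y * u) = (u₁ * h) * (lp hB S6 (cv 1 1) * (y * u)) := by group
        _ = (u₁ * h) * (y * u) * lp hB S6 (cv 1 1) := by rw [← e1]; group
        _ = lp hB S6 (cv 1 1) * ((u₁ * h) * (y * u)) := hc
        _ = _ := by group
    rw [mul_right_cancel e2]; group
  obtain ⟨k, hk0, rfl⟩ := hB.exists_hprod hh
  have hrange : List.range chevF4.rank = [0, 1, 2, 3] := by decide +kernel
  have f39 := hB.hl_conj_xg k (s := 39) l39 (List.range chevF4.rank)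
      (fun i hi => ⟨List.mem_range.mp hi, hk0 i (List.mem_range.mp hi)⟩) 1
  have f45 := hB.hl_conj_xg k (s := 45) l45 (List.range chevF4.rank)
      (fun i hi => ⟨List.mem_range.mp hi, hk0 i (List.mem_range.mp hi)⟩) 1
  have g39 : ∀ i ∈ [0, 1, 2, 3], chevF4.cartan i 39 = [0, -1, 1, 0].getD i 0 := by decide +kernel
  have g45 : ∀ i ∈ [0, 1, 2, 3], chevF4.cartan i 45 = [0, 2, -1, 0].getD i 0 := by decide +kernel
  have e3 : hB.hprod k * lp hB S6 (cv 1 1) * (hB.hprod k)⁻¹ =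
      lp hB S6 (cv ((k 1)⁻¹ * k 2) (k 1 ^ 2 * (k 2)⁻¹)) := by
    rw [lp_cv, lp_cv]
    have : hB.hprod k * (hB.xg 39 1 * hB.xg 45 1) * (hB.hprod k)⁻¹ =
        (hB.hl k (List.range chevF4.rank) * hB.xg 39 1 * (hB.hl k (List.range chevF4.rank))⁻¹) *
        (hB.hl k (List.range chevF4.rank) * hB.xg 45 1 * (hB.hl k (List.range chevF4.rank))⁻¹) := by
      unfold Base.hprod; group
    rw [this, f39, f45, hrange]
    simp only [List.map_cons, List.map_nil, List.prod_cons, List.prod_nil,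
      g39 0 (by simp), g39 1 (by simp), g39 2 (by simp), g39 3 (by simp),
      g45 0 (by simp), g45 1 (by simp), g45 2 (by simp), g45 3 (by simp)]
    congr 2 <;> simp [_root_.zpow_neg]
  obtain ⟨d, hd⟩ := U_form hB hD hu₁
  rw [conj_mul', e3, hd, lp_conj_fold hB stp (hstp hB) _ posRoots_pos] at hc2
  have hinj := lp_inj hB hD S6_pos S6_sorted hc2
  obtain ⟨v39, v45, v40, v44, v46, v47⟩ := fold_eval d ((k 1)⁻¹ * k 2) (k 1 ^ 2 * (k 2)⁻¹)
  have w39 := hinj 39 (by decide)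
  have w45 := hinj 45 (by decide)
  have w40 := hinj 40 (by decide)
  have w44 := hinj 44 (by decide)
  have w46 := hinj 46 (by decide)
  have w47 := hinj 47 (by decide)
  rw [v39] at w39
  rw [v45] at w45
  rw [v40, w39] at w40
  rw [v44, w39] at w44
  rw [v46, w45] at w46
  rw [v47, w45] at w47
  simp only [cv] at w39 w45 w40 w44 w46 w47
  norm_num at w39 w45 w40 w44 w46 w47
  have d26 : d 26 = 0 := by
    rw [w46] at w47
    simpa using w47
  have hk1 : k 1 ≠ 0 := hk0 1 (by decide +kernel)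
  have hk2 : k 2 ≠ 0 := hk0 2 (by decide +kernel)
  have k21 : k 2 = k 1 := by
    field_simp at w39
    exact w39
  have k1 : k 1 = 1 := by
    rw [k21] at w45
    field_simp at w45
    exact w45
  have k2 : k 2 = 1 := by rw [k21, k1]
  refine mul_mem ?_ ?_
  · rw [hd]
    apply lp_mem hB
    intro s hs hne
    apply xpos_mem hB (posRoots_pos s hs)
    intro hmem
    simp only [List.mem_cons, List.not_mem_nil, or_false] at hmem
    rcases hmem with rfl | rfl | rfl | rfl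
    · exact hne w40
    · exact hne w46
    · exact hne w44
    · exact hne d26
  · unfold Base.hprod Base.hl
    rw [hrange]
    simp only [List.map_cons, List.map_nil, List.prod_cons, List.prod_nil, mul_one, k1, k2, Base.hg_one, one_mul]
    exact mul_mem (hg0_mem hB _) (hg3_mem hB _)

/-! ### the involution `x_47(1) x_44(1)` -/

def S2 : List ℕ := [44, 47]

theorem S2_pos : ∀ r ∈ S2, chevF4.IsPosRoot r := by decide +kernel
theorem S2_sorted : S2.Pairwise (· < ·) := by decide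
theorem S2_lt : ∀ r ∈ S2, r < 48 := by decide

theorem tabPC2 : ∀ s ∈ S2, ∀ s' ∈ S2, okPair s s' = true := by decide +kernel

theorem pc2 [CharP F 2] : PC hB S2 := fun s hs s' hs' t u =>
  cm hB (S2_lt s hs) (S2_lt s' hs') (tabPC2 s hs s' hs') t u

def Y1 : List (List ℕ) :=
  [[], [3, 2, 1, 2, 3, 2, 1, 2, 0, 1, 2, 0, 1], [3, 1, 2, 0, 1, 2, 3, 0], [1, 2, 3, 0, 1, 2]]

theorem tabY1 : ∀ L ∈ Y1, (∀ i ∈ L, i < chevF4.rank) ∧ ∀ s ∈ S2, chevF4.IsPosRoot (wAct chevF4 L s) := by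
  decide +kernel

theorem tabC1 : ∀ q : Fin 48, (∀ L ∈ Y1, chevF4.IsPosRoot (wAct chevF4 L q)) → q.val ∈ S2 := by
  decide +kernel

theorem mem_S2 [CharP F 2] {n : GL chevF4.Idx F} {π : ℕ → ℕ} (hn : GAct hB n π) {c c' : ℕ → F}
    (h : n * lp hB S2 c * n⁻¹ = lp hB S2 c') {s : ℕ} (hs : s ∈ S2) (hc : c s ≠ 0) : π s ∈ S2 := by
  refine tabC1 ⟨π s, (hn s (S2_lt s hs)).1⟩ fun L hL => ?_
  exact pos_of_word hB hD4 hn S2_pos S2_sorted (pc2 hB) h (tabY1 L hL).1 (tabY1 L hL).2 s hs hc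

theorem tabFix1 : ∀ i ∈ S2, ∀ j ∈ S2, chevF4.pairing i j = chevF4.pairing 44 47 →
    chevF4.pairing j i = chevF4.pairing 47 44 → i = 44 ∧ j = 47 := by decide +kernel

/-- the claimed centralizer -/
def K1 (F : Type*) [Field F] : Subgroup (GL chevF4.Idx F) :=
  chevF4.posUnipotent F ⊔ chevF4.rootSubgroup F 20 ⊔ chevF4.rootSubgroup F 22

theorem U_le_K1 : chevF4.posUnipotent F ≤ K1 F := le_sup_of_le_left le_sup_left
theorem x20_mem (t : F) : hB.xg 20 t ∈ K1 F :=
  Subgroup.mem_sup_left (Subgroup.mem_sup_right (hB.xg_mem_root 20 t))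
theorem x22_mem (t : F) : hB.xg 22 t ∈ K1 F :=
  Subgroup.mem_sup_right (hB.xg_mem_root 22 t)

theorem ng1_mem (t : F) : hB.ng (chevF4.simple 1) t ∈ K1 F := by
  unfold Base.ng
  have e1 : chevF4.simple 1 = 27 := by decide +kernel
  have e2 : chevF4.neg 27 = 20 := by decide +kernel
  rw [e1, e2]
  have h27 : ∀ t : F, hB.xg 27 t ∈ K1 F := fun t => U_le_K1 (hB.xg_mem_pos (by decide +kernel) t)
  exact mul_mem (mul_mem (h27 _) (x20_mem hB _)) (h27 _)

theorem ng2_mem (t : F) : hB.ng (chevF4.simple 2) t ∈ K1 F := by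
  unfold Base.ng
  have e1 : chevF4.simple 2 = 25 := by decide +kernel
  have e2 : chevF4.neg 25 = 22 := by decide +kernel
  rw [e1, e2]
  have h25 : ∀ t : F, hB.xg 25 t ∈ K1 F := fun t => U_le_K1 (hB.xg_mem_pos (by decide +kernel) t)
  exact mul_mem (mul_mem (h25 _) (x22_mem hB _)) (h25 _)

theorem hg1_mem (t : F) : hB.hg (chevF4.simple 1) t ∈ K1 F := by
  unfold Base.hg
  exact mul_mem (ng1_mem hB _) (ng1_mem hB _)

theorem hg2_mem (t : F) : hB.hg (chevF4.simple 2) t ∈ K1 F := by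
  unfold Base.hg
  exact mul_mem (ng2_mem hB _) (ng2_mem hB _)

theorem tabK1 : ∀ r : Fin 48, (chevF4.IsPosRoot r ∨ r.val = 20 ∨ r.val = 22) →
    okPair r 44 = true ∧ okPair r 47 = true := by decide +kernel

/-- the coefficients of `x_44(a) x_47(b)` -/
def cw (a b : F) : ℕ → F := fun s => if s = 44 then a else b

theorem lp_cw (a b : F) : lp hB S2 (cw a b) = hB.xg 44 a * hB.xg 47 b := by
  simp [S2, cw]

theorem K1_le [CharP F 2] : K1 F ≤ chevF4.group F ⊓ Subgroup.centralizer {hB.xg 44 1 * hB.xg 47 1} := by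
  have key : ∀ r (hr : r < 48), (chevF4.IsPosRoot r ∨ r = 20 ∨ r = 22) → ∀ t : F,
      hB.xg r t ∈ chevF4.group F ⊓ Subgroup.centralizer {hB.xg 44 1 * hB.xg 47 1} := by
    intro r hr h t
    refine Subgroup.mem_inf.mpr ⟨hB.xg_mem_group hr t, ?_⟩
    rw [Subgroup.mem_centralizer_singleton_iff]
    have h1 := cm hB hr (by norm_num) (tabK1 ⟨r, hr⟩ h).1 t 1
    have h2 := cm hB hr (by norm_num) (tabK1 ⟨r, hr⟩ h).2 t 1
    rw [← mul_assoc, h1, mul_assoc, h2, mul_assoc]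
  unfold K1
  refine sup_le (sup_le ?_ ?_) ?_
  · rw [hB.posUnipotent_eq, Subgroup.closure_le]
    rintro _ ⟨s, t, hs, rfl⟩
    exact key s hs.1 (Or.inl hs) t
  · exact root_le hB (key 20 (by norm_num) (Or.inr (Or.inl rfl)))
  · exact root_le hB (key 22 (by norm_num) (Or.inr (Or.inr rfl)))

theorem tabJ1 : ∀ i : Fin 4, ¬ (i.val = 1 ∨ i.val = 2) → ∀ q : Fin 48, chevF4.IsNegRoot q →
    ¬ (∀ r ∈ [44, 47], chevF4.pairing q r = chevF4.pairing (chevF4.simple i) r) := by decide +kernel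

theorem tabJ12 : ∀ i : Fin 4, (i.val = 1 ∨ i.val = 2) → ∀ r ∈ [44, 47], chevF4.reflectRoot i r = r := by
  decide +kernel

/-- The centralizer of `x_47(1) x_44(1)`. -/
theorem centralizer_w [CharP F 2] (v : GL chevF4.Idx F)
    (hv : (v : Matrix chevF4.Idx chevF4.Idx F) = chevF4.x F 47 1 * chevF4.x F 44 1) :
    chevF4.group F ⊓ Subgroup.centralizer {v} = K1 F := by
  have hD := hD4
  have hB := base_of_mem F hD
  have hT := tabs2_of_mem hD
  have hTt := hT.tab
  let X := bnData_of_mem F hD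
  have hv' : v = hB.xg 44 1 * hB.xg 47 1 := by
    rw [pc2 hB 44 (by decide) 47 (by decide)]
    exact Units.ext (by rw [hv]; simp [Units.val_mul, Base.coe_xg])
  rw [hv']
  apply le_antisymm _ (K1_le hB)
  intro g hgc
  obtain ⟨hg, hc⟩ := Subgroup.mem_inf.mp hgc
  rw [Subgroup.mem_centralizer_singleton_iff] at hc
  have hKc : ∀ z ∈ K1 F, z * (hB.xg 44 1 * hB.xg 47 1) = (hB.xg 44 1 * hB.xg 47 1) * z := by
    intro z hz
    have := (Subgroup.mem_inf.mp (K1_le hB hz)).2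
    rwa [Subgroup.mem_centralizer_singleton_iff] at this
  rw [← lp_cw hB] at hc hKc
  obtain ⟨b, hb, n, hn, u, hu, rfl⟩ := X.bruhat_normal_exists hg
  obtain ⟨u₁, hu₁, h₁, hh₁, rfl⟩ := hB.mem_B_iff.mp hb
  have hu' := Um_le_U n hu
  have hn' : h₁ * n ∈ chevF4.monomialSubgroup F := mul_mem (Base.H_le_N hh₁) hn
  have hmain : (h₁ * n) * lp hB S2 (cw 1 1) * (h₁ * n)⁻¹ = lp hB S2 (cw 1 1) := by
    have e1 := hKc u (U_le_K1 hu')
    have e2 := hKc u₁ (U_le_K1 hu₁)
    have e3 : u₁ * ((h₁ * n) * lp hB S2 (cw 1 1)) * u = u₁ * (lp hB S2 (cw 1 1) * (h₁ * n)) * u := by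
      calc u₁ * ((h₁ * n) * lp hB S2 (cw 1 1)) * u = u₁ * h₁ * n * (lp hB S2 (cw 1 1) * u) := by group
        _ = u₁ * h₁ * n * u * lp hB S2 (cw 1 1) := by rw [← e1]; group
        _ = lp hB S2 (cw 1 1) * (u₁ * h₁ * n * u) := hc
        _ = (lp hB S2 (cw 1 1) * u₁) * (h₁ * n) * u := by group
        _ = _ := by rw [← e2]; group
    have e4 := mul_left_cancel (mul_right_cancel e3)
    rw [e4]; group
  let w : ↥X.P.N := ⟨⟨h₁ * n, hB.N_le_group hTt hn'⟩, (X.mem_N_iff _).2 hn'⟩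
  obtain ⟨π, π', hAct, -, hpr, -, hσ⟩ := exists_act X w
  have hAct : GAct hB (h₁ * n) π := hAct
  have hi := mem_S2 hB hAct hmain (s := 44) (by decide) (by simp [cw])
  have hj := mem_S2 hB hAct hmain (s := 47) (by decide) (by simp [cw])
  have l44 : (44 : ℕ) < chevF4.nroots := by decide +kernel
  have l47 : (47 : ℕ) < chevF4.nroots := by decide +kernel
  have hfix2 := tabFix1 _ hi _ hj (hpr 44 47 l44 l47) (hpr 47 44 l47 l44)
  have hR : ∀ r ∈ [44, 47], r < chevF4.nroots := by decide +kernel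
  have hfix : ∀ r (hr : r ∈ [44, 47]), X.σ w ⟨r, hR r hr⟩ = ⟨r, hR r hr⟩ := by
    intro r hr
    apply Fin.ext
    rw [← hσ r (hR r hr)]
    simp only [List.mem_cons, List.not_mem_nil, or_false] at hr
    rcases hr with rfl | rfl
    · exact hfix2.1
    · exact hfix2.2
  obtain ⟨h, hh, y, hy, e⟩ := mem_of_fix2 X [44, 47] hR (fun i => i = 1 ∨ i = 2)
    (fun i hi hJ q hq => tabJ1 ⟨i, hi⟩ hJ ⟨q, hq.1⟩ hq)
    (fun i hi hJ => tabJ12 ⟨i, hi⟩ hJ) (K1 F)
    (fun i _ hJ => by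
      rcases hJ with rfl | rfl
      · exact ng1_mem hB 1
      · exact ng2_mem hB 1) _ w rfl hfix
  have e' : h₁ * n = h * y := e
  have hhc : h * lp hB S2 (cw 1 1) * h⁻¹ = lp hB S2 (cw 1 1) := by
    have hyc := hKc y hy
    rw [e'] at hmain
    calc h * lp hB S2 (cw 1 1) * h⁻¹ = h * (lp hB S2 (cw 1 1) * y) * y⁻¹ * h⁻¹ := by group
      _ = (h * y) * lp hB S2 (cw 1 1) * (h * y)⁻¹ := by rw [← hyc]; group
      _ = _ := hmain
  have hhK : h ∈ K1 F := by
    obtain ⟨k, hk0, rfl⟩ := hB.exists_hprod hh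
    have hrange : List.range chevF4.rank = [0, 1, 2, 3] := by decide +kernel
    have f44 := hB.hl_conj_xg k (s := 44) l44 (List.range chevF4.rank)
        (fun i hi => ⟨List.mem_range.mp hi, hk0 i (List.mem_range.mp hi)⟩) 1
    have f47 := hB.hl_conj_xg k (s := 47) l47 (List.range chevF4.rank)
        (fun i hi => ⟨List.mem_range.mp hi, hk0 i (List.mem_range.mp hi)⟩) 1
    have g44 : ∀ i ∈ [0, 1, 2, 3], chevF4.cartan i 44 = [1, 0, 0, 0].getD i 0 := by decide +kernel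
    have g47 : ∀ i ∈ [0, 1, 2, 3], chevF4.cartan i 47 = [0, 0, 0, 1].getD i 0 := by decide +kernel
    have e3 : hB.hprod k * lp hB S2 (cw 1 1) * (hB.hprod k)⁻¹ = lp hB S2 (cw (k 0) (k 3)) := by
      rw [lp_cw, lp_cw]
      have : hB.hprod k * (hB.xg 44 1 * hB.xg 47 1) * (hB.hprod k)⁻¹ =
          (hB.hl k (List.range chevF4.rank) * hB.xg 44 1 * (hB.hl k (List.range chevF4.rank))⁻¹) *
          (hB.hl k (List.range chevF4.rank) * hB.xg 47 1 * (hB.hl k (List.range chevF4.rank))⁻¹) := by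
        unfold Base.hprod; group
      rw [this, f44, f47, hrange]
      simp only [List.map_cons, List.map_nil, List.prod_cons, List.prod_nil,
        g44 0 (by simp), g44 1 (by simp), g44 2 (by simp), g44 3 (by simp),
        g47 0 (by simp), g47 1 (by simp), g47 2 (by simp), g47 3 (by simp)]
      congr 2 <;> simp
    rw [e3] at hhc
    have hinj := lp_inj hB hD S2_pos S2_sorted hhc
    have k0 : k 0 = 1 := by simpa [cw] using hinj 44 (by decide)
    have k3 : k 3 = 1 := by simpa [cw] using hinj 47 (by decide)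
    unfold Base.hprod Base.hl
    rw [hrange]
    simp only [List.map_cons, List.map_nil, List.prod_cons, List.prod_nil, mul_one, k0, k3, Base.hg_one, one_mul]
    exact mul_mem (hg1_mem hB _) (hg2_mem hB _)
  have : u₁ * h₁ * n * u = u₁ * (h * y) * u := by rw [← e']; group
  rw [this]
  exact mul_mem (mul_mem (U_le_K1 hu₁) (mul_mem hhK hy)) (U_le_K1 hu')

end Cfsg.Agent.Lib.Helper17.F4C
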