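import Cfsg.Agent.Lib.Helper36.ChevCent

/-!
# The centralizer of a short root involution of `G₂(q)`, `q` even (helper17)
-/

set_option autoImplicit false

namespace Cfsg.Agent.Lib.Helper17.G2C

open Cfsg.Lie Cfsg.Agent.Lib.Helper18 Cfsg.Agent.Lib.Helper17 Cfsg.Agent.Lib.Helper36
  Cfsg.Agent.Lib.Helper6 Matrix

variable {F : Type*} [Field F]

section gen

variable {D : ChevalleyDatum} (hB : Base D F)
include hB

theorem comm_nil {r s : ℕ} (hr : r < D.nroots) (hs : s < D.nroots) (h1 : s ≠ r) (h2 : s ≠ D.neg r)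
    (h : D.commTerms r s = []) (t u : F) : hB.xg r t * hB.xg s u = hB.xg s u * hB.xg r t := by
  have h3 := hB.comm_xg hr hs h1 h2 t u
  have h4 : hB.wg (D.commWord F r s t u) = 1 := by
    unfold ChevalleyDatum.commWord
    rw [h]; rfl
  rw [h4, mul_one] at h3
  calc hB.xg r t * hB.xg s u = hB.xg r t * ((hB.xg r t)⁻¹ * hB.xg s u * hB.xg r t) := by rw [h3]
    _ = _ := by group

theorem conj_one {r s k i j : ℕ} {c : ℤ} (hr : r < D.nroots) (hs : s < D.nroots) (h1 : s ≠ r)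
    (h2 : s ≠ D.neg r) (h : D.commTerms r s = [(k, c, i, j)]) (t u : F) :
    hB.xg r t * hB.xg s u * (hB.xg r t)⁻¹ = hB.xg s u * hB.xg k ((c : F) * t ^ i * u ^ j) := by
  have h3 := hB.comm_xg hr hs h1 h2 (-t) u
  have h4 : hB.wg (D.commWord F r s (-t) u) = hB.xg k ((c : F) * t ^ i * u ^ j) := by
    unfold ChevalleyDatum.commWord
    rw [h]
    simp [Base.wg]
  rw [h4, hB.xg_inv, neg_neg] at h3
  rw [hB.xg_inv]
  exact h3

end gen

/-! ### type `G₂` -/

variable (hB : Base chevG2 F)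

/-- the elements `x_9(c) x_10(α) x_11(β)` -/
def T (c α β : F) : GL chevG2.Idx F := hB.xg 9 c * hB.xg 10 α * hB.xg 11 β

theorem nr : chevG2.nroots = 12 := by decide +kernel

theorem c6_9 (t u : F) : hB.xg 6 t * hB.xg 9 u = hB.xg 9 u * hB.xg 6 t :=
  comm_nil hB (by decide +kernel) (by decide +kernel) (by decide +kernel) (by decide +kernel) (by decide +kernel) t u
theorem c5_9 (t u : F) : hB.xg 5 t * hB.xg 9 u = hB.xg 9 u * hB.xg 5 t :=
  comm_nil hB (by decide +kernel) (by decide +kernel) (by decide +kernel) (by decide +kernel) (by decide +kernel) t u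
theorem c6_11 (t u : F) : hB.xg 6 t * hB.xg 11 u = hB.xg 11 u * hB.xg 6 t :=
  comm_nil hB (by decide +kernel) (by decide +kernel) (by decide +kernel) (by decide +kernel) (by decide +kernel) t u
theorem c7_10 (t u : F) : hB.xg 7 t * hB.xg 10 u = hB.xg 10 u * hB.xg 7 t :=
  comm_nil hB (by decide +kernel) (by decide +kernel) (by decide +kernel) (by decide +kernel) (by decide +kernel) t u
theorem c7_11 (t u : F) : hB.xg 7 t * hB.xg 11 u = hB.xg 11 u * hB.xg 7 t :=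
  comm_nil hB (by decide +kernel) (by decide +kernel) (by decide +kernel) (by decide +kernel) (by decide +kernel) t u
theorem c8_10 (t u : F) : hB.xg 8 t * hB.xg 10 u = hB.xg 10 u * hB.xg 8 t :=
  comm_nil hB (by decide +kernel) (by decide +kernel) (by decide +kernel) (by decide +kernel) (by decide +kernel) t u
theorem c8_11 (t u : F) : hB.xg 8 t * hB.xg 11 u = hB.xg 11 u * hB.xg 8 t :=
  comm_nil hB (by decide +kernel) (by decide +kernel) (by decide +kernel) (by decide +kernel) (by decide +kernel) t u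
theorem c9_10 (t u : F) : hB.xg 9 t * hB.xg 10 u = hB.xg 10 u * hB.xg 9 t :=
  comm_nil hB (by decide +kernel) (by decide +kernel) (by decide +kernel) (by decide +kernel) (by decide +kernel) t u
theorem c9_11 (t u : F) : hB.xg 9 t * hB.xg 11 u = hB.xg 11 u * hB.xg 9 t :=
  comm_nil hB (by decide +kernel) (by decide +kernel) (by decide +kernel) (by decide +kernel) (by decide +kernel) t u
theorem c10_11 (t u : F) : hB.xg 10 t * hB.xg 11 u = hB.xg 11 u * hB.xg 10 t :=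
  comm_nil hB (by decide +kernel) (by decide +kernel) (by decide +kernel) (by decide +kernel) (by decide +kernel) t u

theorem k7_9 (t u : F) : hB.xg 7 t * hB.xg 9 u * (hB.xg 7 t)⁻¹ = hB.xg 9 u * hB.xg 10 (3 * t * u) := by
  have := conj_one hB (r := 7) (s := 9) (k := 10) (c := 3) (i := 1) (j := 1) (by decide +kernel)
    (by decide +kernel) (by decide +kernel) (by decide +kernel) (by decide +kernel) t u
  simpa using this
theorem k8_9 (t u : F) : hB.xg 8 t * hB.xg 9 u * (hB.xg 8 t)⁻¹ = hB.xg 9 u * hB.xg 11 (3 * t * u) := by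
  have := conj_one hB (r := 8) (s := 9) (k := 11) (c := 3) (i := 1) (j := 1) (by decide +kernel)
    (by decide +kernel) (by decide +kernel) (by decide +kernel) (by decide +kernel) t u
  simpa using this
theorem k6_10 (t u : F) : hB.xg 6 t * hB.xg 10 u * (hB.xg 6 t)⁻¹ = hB.xg 10 u * hB.xg 11 (t * u) := by
  have := conj_one hB (r := 6) (s := 10) (k := 11) (c := 1) (i := 1) (j := 1) (by decide +kernel)
    (by decide +kernel) (by decide +kernel) (by decide +kernel) (by decide +kernel) t u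
  simpa using this

theorem conj_of_comm {G : Type*} [Group G] {a b : G} (h : a * b = b * a) : a * b * a⁻¹ = b := by
  rw [h]; group

theorem conj3 {G : Type*} [Group G] (y a b c : G) :
    y * (a * b * c) * y⁻¹ = (y * a * y⁻¹) * (y * b * y⁻¹) * (y * c * y⁻¹) := by group

theorem T6 (t c α β : F) : hB.xg 6 t * T hB c α β * (hB.xg 6 t)⁻¹ = T hB c α (β + t * α) := by
  unfold T
  rw [conj3, conj_of_comm (c6_9 hB t c), k6_10, conj_of_comm (c6_11 hB t β), ← mul_assoc, mul_assoc (_ * _),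
    hB.xg_add, add_comm]

theorem T7 (t c α β : F) : hB.xg 7 t * T hB c α β * (hB.xg 7 t)⁻¹ = T hB c (α + 3 * t * c) β := by
  unfold T
  rw [conj3, k7_9, conj_of_comm (c7_10 hB t α), conj_of_comm (c7_11 hB t β), mul_assoc (hB.xg 9 c),
    hB.xg_add, add_comm]

theorem T8 (t c α β : F) : hB.xg 8 t * T hB c α β * (hB.xg 8 t)⁻¹ = T hB c α (β + 3 * t * c) := by
  unfold T
  rw [conj3, k8_9, conj_of_comm (c8_10 hB t α), conj_of_comm (c8_11 hB t β), mul_assoc (hB.xg 9 c),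
    ← c10_11, ← mul_assoc, mul_assoc (_ * _), hB.xg_add, add_comm]

theorem T9 (t c α β : F) : hB.xg 9 t * T hB c α β * (hB.xg 9 t)⁻¹ = T hB c α β := by
  unfold T
  rw [conj3, conj_of_comm (c9_10 hB t α), conj_of_comm (c9_11 hB t β)]
  congr 2
  rw [hB.xg_add, hB.xg_inv, hB.xg_add]; congr 1; ring

theorem T10 (t c α β : F) : hB.xg 10 t * T hB c α β * (hB.xg 10 t)⁻¹ = T hB c α β := by
  unfold T
  rw [conj3, conj_of_comm (c9_10 hB c t).symm, conj_of_comm (c10_11 hB t β)]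
  congr 2
  rw [hB.xg_add, hB.xg_inv, hB.xg_add]; congr 1; ring

theorem T11 (t c α β : F) : hB.xg 11 t * T hB c α β * (hB.xg 11 t)⁻¹ = T hB c α β := by
  unfold T
  rw [conj3, conj_of_comm (c9_11 hB c t).symm, conj_of_comm (c10_11 hB α t).symm]
  congr 1
  rw [hB.xg_add, hB.xg_inv, hB.xg_add]; congr 1; ring

/-- the normal form of the elements of `U` -/
theorem U_form {u : GL chevG2.Idx F} (hu : u ∈ chevG2.posUnipotent F) : ∃ c : ℕ → F,
    u = hB.xg 6 (c 6) * (hB.xg 7 (c 7) * (hB.xg 8 (c 8) * (hB.xg 9 (c 9) * (hB.xg 10 (c 10) * hB.xg 11 (c 11))))) := by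
  obtain ⟨T, W, hc⟩ := exists_checks chevG2 (by simp)
  obtain ⟨c, hcu⟩ := exists_ordProd hc (triOK_of_mem (by simp)) (ordOK_of_mem (by simp)) hu
  refine ⟨c, Units.ext ?_⟩
  rw [hcu]
  have : chevG2.posRoots = [6, 7, 8, 9, 10, 11] := by decide +kernel
  rw [this]
  simp only [ordProd_cons, ordProd_nil, Units.val_mul, Base.coe_xg, mul_one]

theorem T_inj {c α β c' α' β' : F} (h : T hB c α β = T hB c' α' β') : c = c' ∧ α = α' ∧ β = β' := by
  obtain ⟨T', W, hc⟩ := exists_checks chevG2 (by simp)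
  let f : ℕ → F := fun r => if r = 9 then c else if r = 10 then α else β
  let f' : ℕ → F := fun r => if r = 9 then c' else if r = 10 then α' else β'
  have e : ordProd chevG2 [9, 10, 11] f = ordProd chevG2 [9, 10, 11] f' := by
    have := congrArg (fun g : GL chevG2.Idx F => (g : Matrix chevG2.Idx chevG2.Idx F)) h
    simp only [T, Units.val_mul, Base.coe_xg] at this
    simp only [ordProd_cons, ordProd_nil, mul_one, f, f']
    simpa [mul_assoc] using this
  have key := ordProd_inj hc (triOK_of_mem (by simp)) (ordOK_of_mem (by simp)) [9, 10, 11]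
    (by decide +kernel) (by decide) f f' e
  refine ⟨?_, ?_, ?_⟩
  · simpa [f, f'] using key 9 (by simp)
  · simpa [f, f'] using key 10 (by simp)
  · simpa [f, f'] using key 11 (by simp)

theorem conj_mul {G : Type*} [Group G] (a b x : G) : (a * b) * x * (a * b)⁻¹ = a * (b * x * b⁻¹) * a⁻¹ := by
  group

/-- conjugation of `T` by an element of `U` -/
theorem U_conj_T (c6 c7 c8 c9 c10 c11 c α β : F) :
    (hB.xg 6 c6 * (hB.xg 7 c7 * (hB.xg 8 c8 * (hB.xg 9 c9 * (hB.xg 10 c10 * hB.xg 11 c11))))) * T hB c α β *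
      (hB.xg 6 c6 * (hB.xg 7 c7 * (hB.xg 8 c8 * (hB.xg 9 c9 * (hB.xg 10 c10 * hB.xg 11 c11)))))⁻¹ =
      T hB c (α + 3 * c7 * c) (β + 3 * c8 * c + c6 * (α + 3 * c7 * c)) := by
  rw [conj_mul, conj_mul, conj_mul, conj_mul, conj_mul, T11, T10, T9, T8, T7, T6]

/-! ### monomial actions -/

/-- `y` permutes the root subgroups according to `π` -/
def Act (y : GL chevG2.Idx F) (π : ℕ → ℕ) : Prop :=
  ∀ s, s < 12 → π s < 12 ∧ ∃ η : F, η ≠ 0 ∧ ∀ t : F, y * hB.xg s t * y⁻¹ = hB.xg (π s) (η * t)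

theorem Act.mul {y y' : GL chevG2.Idx F} {π π' : ℕ → ℕ} (h : Act hB y π) (h' : Act hB y' π') :
    Act hB (y * y') (π ∘ π') := by
  intro s hs
  obtain ⟨h1, η', hη', e'⟩ := h' s hs
  obtain ⟨h2, η, hη, e⟩ := h _ h1
  refine ⟨h2, η * η', mul_ne_zero hη hη', fun t => ?_⟩
  rw [conj_mul, e', e, mul_assoc]
  rfl

theorem act_ng {i : ℕ} (hi : i < 2) : Act hB (hB.ng (chevG2.simple i) 1) (chevG2.reflectRoot i) := by
  intro s hs
  have hT := (tabs2_of_mem (D := chevG2) (by simp)).tab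
  obtain ⟨η, hη, h⟩ := hB.ng_conj_xg (i := i) (s := s) hi hs
  refine ⟨hT.refl_lt i s hi hs, η, by rcases hη with rfl | rfl <;> simp, fun t => (h t).1⟩

theorem pos_or_neg' {s : ℕ} (hs : s < 12) : chevG2.IsPosRoot s ∨ chevG2.IsNegRoot s :=
  (tabs2_of_mem (D := chevG2) (by simp)).tab.pos_or_neg hs

include hB in
theorem eq_one_of_UV {g : GL chevG2.Idx F} (h1 : g ∈ chevG2.posUnipotent F) (h2 : g ∈ chevG2.negUnipotent F) :
    g = 1 := by
  have : g ∈ chevG2.posUnipotent F ⊓ chevG2.negUnipotent F := ⟨h1, h2⟩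
  rwa [hB.U_inf_V (tabs2_of_mem (D := chevG2) (by simp)).toTabs, Subgroup.mem_bot] at this

theorem T_zero : T hB 0 0 0 = 1 := by simp [T]

theorem conj_eq_one {G : Type*} [Group G] {y a : G} (h : y * a * y⁻¹ = 1) : a = 1 := by
  have : a = y⁻¹ * (y * a * y⁻¹) * y := by group
  rw [this, h]; group

/-- if `y T y⁻¹ ∈ U` then the image of the root `9` is positive -/
theorem stepA {y : GL chevG2.Idx F} {π : ℕ → ℕ} (hy : Act hB y π) {c α β : F} (hc : c ≠ 0)
    (hU : y * T hB c α β * y⁻¹ ∈ chevG2.posUnipotent F) : chevG2.IsPosRoot (π 9) := by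
  obtain ⟨h9, η9, -, e9⟩ := hy 9 (by norm_num)
  obtain ⟨h10, η10, -, e10⟩ := hy 10 (by norm_num)
  obtain ⟨h11, η11, -, e11⟩ := hy 11 (by norm_num)
  rcases pos_or_neg' h9 with hp | hn
  · exact hp
  exfalso
  have hp9 : y * hB.xg 9 c * y⁻¹ ∈ chevG2.negUnipotent F := by rw [e9]; exact hB.xg_mem_neg hn _
  have hfin : ∀ α' β' : F, y * T hB c α' β' * y⁻¹ = 1 → False := by
    intro α' β' h
    have := conj_eq_one h
    rw [← T_zero hB] at this
    exact hc (T_inj hB this).1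
  have eT : y * T hB c α β * y⁻¹ = (y * hB.xg 9 c * y⁻¹) * (y * hB.xg 10 α * y⁻¹) * (y * hB.xg 11 β * y⁻¹) := by
    unfold T; rw [conj3]
  rcases pos_or_neg' h10 with hp10 | hn10 <;> rcases pos_or_neg' h11 with hp11 | hn11
  · -- both positive
    have h1 : y * hB.xg 10 α * y⁻¹ ∈ chevG2.posUnipotent F := by rw [e10]; exact hB.xg_mem_pos hp10 _
    have h2 : y * hB.xg 11 β * y⁻¹ ∈ chevG2.posUnipotent F := by rw [e11]; exact hB.xg_mem_pos hp11 _
    apply hfin 0 0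
    have e : y * T hB c 0 0 * y⁻¹ = y * hB.xg 9 c * y⁻¹ := by simp [T]
    rw [e]
    apply eq_one_of_UV hB _ hp9
    have : y * hB.xg 9 c * y⁻¹ = (y * T hB c α β * y⁻¹) * (y * hB.xg 11 β * y⁻¹)⁻¹ * (y * hB.xg 10 α * y⁻¹)⁻¹ := by
      rw [eT]; group
    rw [this]
    exact mul_mem (mul_mem hU (inv_mem h2)) (inv_mem h1)
  · have h1 : y * hB.xg 10 α * y⁻¹ ∈ chevG2.posUnipotent F := by rw [e10]; exact hB.xg_mem_pos hp10 _
    have h2 : y * hB.xg 11 β * y⁻¹ ∈ chevG2.negUnipotent F := by rw [e11]; exact hB.xg_mem_neg hn11 _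
    apply hfin 0 β
    have e : y * T hB c 0 β * y⁻¹ = (y * hB.xg 9 c * y⁻¹) * (y * hB.xg 11 β * y⁻¹) := by
      simp only [T, Base.xg_zero, mul_one]; group
    rw [e]
    apply eq_one_of_UV hB _ (mul_mem hp9 h2)
    have : (y * hB.xg 9 c * y⁻¹) * (y * hB.xg 11 β * y⁻¹) = (y * T hB c α β * y⁻¹) * (y * hB.xg 10 α * y⁻¹)⁻¹ := by
      have e2 : T hB c α β = hB.xg 9 c * hB.xg 11 β * hB.xg 10 α := by
        unfold T; rw [mul_assoc, c10_11, ← mul_assoc]
      rw [e2]; group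
    rw [this]
    exact mul_mem hU (inv_mem h1)
  · have h1 : y * hB.xg 10 α * y⁻¹ ∈ chevG2.negUnipotent F := by rw [e10]; exact hB.xg_mem_neg hn10 _
    have h2 : y * hB.xg 11 β * y⁻¹ ∈ chevG2.posUnipotent F := by rw [e11]; exact hB.xg_mem_pos hp11 _
    apply hfin α 0
    have e : y * T hB c α 0 * y⁻¹ = (y * hB.xg 9 c * y⁻¹) * (y * hB.xg 10 α * y⁻¹) := by
      simp only [T, Base.xg_zero, mul_one]; group
    rw [e]
    apply eq_one_of_UV hB _ (mul_mem hp9 h1)
    have : (y * hB.xg 9 c * y⁻¹) * (y * hB.xg 10 α * y⁻¹) = (y * T hB c α β * y⁻¹) * (y * hB.xg 11 β * y⁻¹)⁻¹ := by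
      rw [eT]; group
    rw [this]
    exact mul_mem hU (inv_mem h2)
  · have h1 : y * hB.xg 10 α * y⁻¹ ∈ chevG2.negUnipotent F := by rw [e10]; exact hB.xg_mem_neg hn10 _
    have h2 : y * hB.xg 11 β * y⁻¹ ∈ chevG2.negUnipotent F := by rw [e11]; exact hB.xg_mem_neg hn11 _
    apply hfin α β
    apply eq_one_of_UV hB hU
    rw [eT]
    exact mul_mem (mul_mem hp9 h1) h2

theorem act_T_mem {y : GL chevG2.Idx F} {π : ℕ → ℕ} (hy : Act hB y π) (h9 : chevG2.IsPosRoot (π 9))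
    (h10 : chevG2.IsPosRoot (π 10)) (h11 : chevG2.IsPosRoot (π 11)) (c α β : F) :
    y * T hB c α β * y⁻¹ ∈ chevG2.posUnipotent F := by
  obtain ⟨-, η9, -, e9⟩ := hy 9 (by norm_num)
  obtain ⟨-, η10, -, e10⟩ := hy 10 (by norm_num)
  obtain ⟨-, η11, -, e11⟩ := hy 11 (by norm_num)
  unfold T
  rw [conj3, e9, e10, e11]
  exact mul_mem (mul_mem (hB.xg_mem_pos h9 _) (hB.xg_mem_pos h10 _)) (hB.xg_mem_pos h11 _)

theorem T_mem_U (c α β : F) : T hB c α β ∈ chevG2.posUnipotent F :=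
  mul_mem (mul_mem (hB.xg_mem_pos (by decide +kernel) _) (hB.xg_mem_pos (by decide +kernel) _))
    (hB.xg_mem_pos (by decide +kernel) _)

theorem tab_fix : ∀ i : Fin 12, ∀ j : Fin 12, chevG2.pairing i j = chevG2.pairing 9 10 →
    chevG2.pairing j i = chevG2.pairing 10 9 → chevG2.IsPosRoot i → chevG2.IsPosRoot (chevG2.reflectRoot 0 i) →
    chevG2.IsPosRoot (chevG2.reflectRoot 0 (chevG2.reflectRoot 1 i)) → i.val = 9 := by
  decide +kernel

/-- the root `9` is fixed -/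
theorem fix9 {n : GL chevG2.Idx F} {π : ℕ → ℕ} (hn : Act hB n π) {c α β c' α' β' : F} (hc : c ≠ 0)
    (h : n * T hB c α β * n⁻¹ = T hB c' α' β')
    (hp1 : chevG2.pairing (π 9) (π 10) = chevG2.pairing 9 10)
    (hp2 : chevG2.pairing (π 10) (π 9) = chevG2.pairing 10 9) : π 9 = 9 := by
  have h1 : chevG2.IsPosRoot (π 9) := stepA hB hn hc (h ▸ T_mem_U hB _ _ _)
  have ha := act_ng hB (i := 0) (by norm_num)
  have hb := act_ng hB (i := 1) (by norm_num)
  have h2 : chevG2.IsPosRoot (chevG2.reflectRoot 0 (π 9)) := by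
    refine stepA hB (ha.mul hB hn) hc (α := α) (β := β) ?_
    rw [conj_mul, h]
    exact act_T_mem hB ha (by decide +kernel) (by decide +kernel) (by decide +kernel) _ _ _
  have h3 : chevG2.IsPosRoot (chevG2.reflectRoot 0 (chevG2.reflectRoot 1 (π 9))) := by
    refine stepA hB ((ha.mul hB hb).mul hB hn) hc (α := α) (β := β) ?_
    rw [conj_mul, h]
    exact act_T_mem hB (ha.mul hB hb) (by decide +kernel) (by decide +kernel) (by decide +kernel) _ _ _
  exact tab_fix ⟨_, (hn 9 (by norm_num)).1⟩ ⟨_, (hn 10 (by norm_num)).1⟩ hp1 hp2 h1 h2 h3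

/-- the elements of `N` fixing a dominant root `r` (a fundamental weight) -/
theorem mem_of_fix' {D : ChevalleyDatum} {r i0 : ℕ} (pos : D.IsPosRoot r)
    (dom : ∀ s, D.IsNegRoot s → D.pairing s r ≤ 0) (car1 : D.cartan i0 r = 1)
    (car0 : ∀ i, i < D.rank → i ≠ i0 → D.cartan i r = 0) (X : BNData D F)
    (K : Subgroup (GL D.Idx F)) (hK : ∀ i, i < D.rank → i ≠ i0 → X.hB.ng (D.simple i) 1 ∈ K) :
    ∀ (k : ℕ) (w : ↥X.P.N), X.rootAct.len w⁻¹ = k → X.σ w ⟨r, pos.1⟩ = ⟨r, pos.1⟩ →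
      ∃ h ∈ D.diagonalSubgroup F, ∃ y ∈ K, ((w : ↥(D.group F)) : GL D.Idx F) = h * y := by
  intro k
  induction k with
  | zero =>
    intro w hw _
    have h1 : ((w⁻¹ : ↥X.P.N) : ↥(D.group F)) ∈ X.P.B := (BN.len_eq_zero (w⁻¹).2).1 hw
    have h2 : (((w : ↥(D.group F)) : GL D.Idx F))⁻¹ ∈ D.borelSubgroup F := (X.mem_B_iff _).1 h1
    have h3 : (((w : ↥(D.group F)) : GL D.Idx F))⁻¹ ∈ D.diagonalSubgroup F := by
      rw [← X.hB.B_inf_N X.hT.toTabs]
      exact ⟨h2, (D.monomialSubgroup F).inv_mem (X.coe_mem_N w)⟩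
    refine ⟨_, ?_, 1, one_mem _, (mul_one _).symm⟩
    have := (D.diagonalSubgroup F).inv_mem h3
    rwa [inv_inv] at this
  | succ k ih =>
    intro w hw hfix
    have hTt := X.hT.tab
    obtain ⟨i, hi⟩ := X.rootAct.down w⁻¹ (by omega)
    have h1 := RootAct.len_of_not_pos hi
    rw [inv_inv] at hi
    have hneg : D.IsNegRoot (X.σ w (X.pI i) : Fin D.nroots) := by
      rcases hTt.pos_or_neg (X.σ w (X.pI i) : Fin D.nroots).2 with h | h
      · exact absurd h hi
      · exact h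
    have hpr : D.pairing (D.simple i) r ≤ 0 := by
      have e := X.rootAct.pr_inv w (X.pI i) ⟨r, pos.1⟩
      have e' : D.pairing (X.σ w (X.pI i) : Fin D.nroots) (X.σ w ⟨r, pos.1⟩ : Fin D.nroots) =
          D.pairing (D.simple i) r := e
      rw [hfix] at e'
      rw [← e']
      exact dom _ hneg
    rw [X.hP.pr_simple i r i.2 pos.1] at hpr
    have hi0 : (i : ℕ) ≠ i0 := by
      intro e
      rw [e, car1] at hpr
      omega
    set w' : ↥X.P.N := w * (X.sN i)⁻¹ with hw'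
    have hw'inv : w'⁻¹ = X.sN i * w⁻¹ := by rw [hw']; group
    have hlen : X.rootAct.len w'⁻¹ = k := by
      rw [hw'inv]
      have : X.rootAct.len (X.rootAct.s i * w⁻¹) = X.rootAct.len (X.sN i * w⁻¹) := rfl
      omega
    have hs : X.σ (X.sN i) ⟨r, pos.1⟩ = ⟨r, pos.1⟩ := by
      apply Fin.ext
      rw [X.σ_sN]
      exact X.hP.fix i r i.2 pos.1 (car0 i i.2 hi0)
    have hfix' : X.σ w' ⟨r, pos.1⟩ = ⟨r, pos.1⟩ := by
      rw [hw', map_mul, map_inv, Equiv.Perm.mul_apply]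
      have : (X.σ (X.sN i))⁻¹ ⟨r, pos.1⟩ = ⟨r, pos.1⟩ := by
        rw [Equiv.Perm.inv_eq_iff_eq]; exact hs.symm
      rw [this, hfix]
    obtain ⟨h, hh, y, hy, e⟩ := ih w' hlen hfix'
    refine ⟨h, hh, y * X.hB.ng (D.simple i) 1, mul_mem hy (hK i i.2 hi0), ?_⟩
    have e2 : ((w : ↥(D.group F)) : GL D.Idx F) =
        ((w' : ↥(D.group F)) : GL D.Idx F) * X.hB.ng (D.simple i) 1 := by
      have : ((w' : ↥(D.group F)) : GL D.Idx F) =
          ((w : ↥(D.group F)) : GL D.Idx F) * (X.hB.ng (D.simple i) 1)⁻¹ := rfl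
      rw [this]; group
    rw [e2, e, mul_assoc]

/-- the claimed centralizer -/
def KK (F : Type*) [Field F] : Subgroup (GL chevG2.Idx F) :=
  chevG2.rootSubgroup F 9 ⊔ chevG2.rootSubgroup F 10 ⊔ chevG2.rootSubgroup F 11 ⊔ chevG2.rootSubgroup F 6 ⊔
    chevG2.rootSubgroup F 5

theorem x9_mem (t : F) : hB.xg 9 t ∈ KK F :=
  Subgroup.mem_sup_left (Subgroup.mem_sup_left (Subgroup.mem_sup_left (Subgroup.mem_sup_left (hB.xg_mem_root 9 t))))
theorem x10_mem (t : F) : hB.xg 10 t ∈ KK F :=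
  Subgroup.mem_sup_left (Subgroup.mem_sup_left (Subgroup.mem_sup_left (Subgroup.mem_sup_right (hB.xg_mem_root 10 t))))
theorem x11_mem (t : F) : hB.xg 11 t ∈ KK F :=
  Subgroup.mem_sup_left (Subgroup.mem_sup_left (Subgroup.mem_sup_right (hB.xg_mem_root 11 t)))
theorem x6_mem (t : F) : hB.xg 6 t ∈ KK F :=
  Subgroup.mem_sup_left (Subgroup.mem_sup_right (hB.xg_mem_root 6 t))
theorem x5_mem (t : F) : hB.xg 5 t ∈ KK F :=
  Subgroup.mem_sup_right (hB.xg_mem_root 5 t)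

theorem ng_mem (t : F) : hB.ng (chevG2.simple 1) t ∈ KK F := by
  unfold Base.ng
  have e1 : chevG2.simple 1 = 6 := by decide +kernel
  have e2 : chevG2.neg 6 = 5 := by decide +kernel
  rw [e1, e2]
  exact mul_mem (mul_mem (x6_mem hB _) (x5_mem hB _)) (x6_mem hB _)

theorem hg_mem' (t : F) : hB.hg (chevG2.simple 1) t ∈ KK F := by
  unfold Base.hg
  exact mul_mem (ng_mem hB _) (ng_mem hB _)

theorem root_le {r : ℕ} {S : Subgroup (GL chevG2.Idx F)} (h : ∀ t : F, hB.xg r t ∈ S) :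
    chevG2.rootSubgroup F r ≤ S := by
  intro g hg
  rw [← SetLike.mem_coe, hB.rootSubgroup_eq] at hg
  obtain ⟨t, rfl⟩ := hg
  exact h t

theorem KK_le : KK F ≤ chevG2.group F ⊓ Subgroup.centralizer {hB.xg 9 1} := by
  have key : ∀ r, r < 12 → (∀ t : F, hB.xg r t * hB.xg 9 1 = hB.xg 9 1 * hB.xg r t) →
      chevG2.rootSubgroup F r ≤ chevG2.group F ⊓ Subgroup.centralizer {hB.xg 9 1} := by
    intro r hr h
    apply root_le hB
    intro t
    refine Subgroup.mem_inf.mpr ⟨hB.xg_mem_group hr t, ?_⟩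
    rw [Subgroup.mem_centralizer_singleton_iff]
    exact h t
  unfold KK
  refine sup_le (sup_le (sup_le (sup_le ?_ ?_) ?_) ?_) ?_
  · exact key 9 (by norm_num) fun t => by rw [hB.xg_add, hB.xg_add, add_comm]
  · exact key 10 (by norm_num) fun t => (c9_10 hB 1 t).symm
  · exact key 11 (by norm_num) fun t => (c9_11 hB 1 t).symm
  · exact key 6 (by norm_num) fun t => c6_9 hB t 1
  · exact key 5 (by norm_num) fun t => c5_9 hB t 1

theorem tab_dom : ∀ s : Fin 12, chevG2.IsNegRoot s → chevG2.pairing s 9 ≤ 0 := by decide +kernel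

theorem tab_six : ∀ s : Fin 12, chevG2.IsPosRoot s → chevG2.pairing s 9 ≤ 0 → s.val = 6 := by decide +kernel

theorem three_eq_one [CharP F 2] : (3 : F) = 1 := by
  have h : ((2 : ℕ) : F) = 0 := CharP.cast_eq_zero F 2
  push_cast at h
  linear_combination h

/-- The centralizer of the short root involution `x_9(1)`. -/
theorem centralizer_x9 [CharP F 2] (t : GL chevG2.Idx F)
    (ht : (t : Matrix chevG2.Idx chevG2.Idx F) = chevG2.x F 9 1) :
    chevG2.group F ⊓ Subgroup.centralizer {t} = KK F := by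
  have hD : chevG2 ∈ [chevG2, chevB2, chevD4, chevF4, chevE6, chevE7, chevE8] := by simp
  have hB := base_of_mem F hD
  have hT := tabs2_of_mem hD
  have hTt := hT.tab
  let X := bnData_of_mem F hD
  rw [hB.eq_xg ht]
  apply le_antisymm _ (KK_le hB)
  intro g hgc
  obtain ⟨hg, hc⟩ := Subgroup.mem_inf.mp hgc
  rw [Subgroup.mem_centralizer_singleton_iff] at hc
  have hKc : ∀ z ∈ KK F, z * hB.xg 9 1 = hB.xg 9 1 * z := by
    intro z hz
    have := (Subgroup.mem_inf.mp (KK_le hB hz)).2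
    rwa [Subgroup.mem_centralizer_singleton_iff] at this
  have tT : hB.xg 9 1 = T hB 1 0 0 := by simp [T]
  obtain ⟨b, hb, n, hn, u, hu, rfl⟩ := X.bruhat_normal_exists hg
  obtain ⟨u₁, hu₁, h₁, hh₁, rfl⟩ := hB.mem_B_iff.mp hb
  have hu' := Um_le_U n hu
  have hn' : h₁ * n ∈ chevG2.monomialSubgroup F := mul_mem (Base.H_le_N hh₁) hn
  -- the two conjugates
  obtain ⟨α, β, ea⟩ : ∃ α β : F, u * hB.xg 9 1 * u⁻¹ = T hB 1 α β := by
    obtain ⟨d, hd⟩ := U_form hB hu'
    rw [hd, tT, U_conj_T]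
    exact ⟨_, _, rfl⟩
  obtain ⟨α', β', ea'⟩ : ∃ α β : F, u₁⁻¹ * hB.xg 9 1 * u₁ = T hB 1 α β := by
    obtain ⟨d, hd⟩ := U_form hB (inv_mem hu₁)
    have : u₁⁻¹ * hB.xg 9 1 * u₁ = u₁⁻¹ * hB.xg 9 1 * (u₁⁻¹)⁻¹ := by rw [inv_inv]
    rw [this, hd, tT, U_conj_T]
    exact ⟨_, _, rfl⟩
  have hmain : (h₁ * n) * T hB 1 α β * (h₁ * n)⁻¹ = T hB 1 α' β' := by
    rw [← ea, ← ea']
    calc (h₁ * n) * (u * hB.xg 9 1 * u⁻¹) * (h₁ * n)⁻¹
        = u₁⁻¹ * ((u₁ * h₁ * n * u) * hB.xg 9 1) * u⁻¹ * n⁻¹ * h₁⁻¹ := by group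
      _ = u₁⁻¹ * (hB.xg 9 1 * (u₁ * h₁ * n * u)) * u⁻¹ * n⁻¹ * h₁⁻¹ := by rw [hc]
      _ = _ := by group
  let w : ↥X.P.N := ⟨⟨h₁ * n, hB.N_le_group hTt hn'⟩, (X.mem_N_iff _).2 hn'⟩
  let π : ℕ → ℕ := fun s => if h : s < 12 then (X.σ w ⟨s, h⟩ : Fin chevG2.nroots).val else 0
  have hπ : ∀ s (h : s < 12), π s = (X.σ w ⟨s, h⟩ : Fin chevG2.nroots).val := by
    intro s h
    simp only [π, dif_pos h]
  have hAct : Act hB (h₁ * n) π := by
    intro s hs
    obtain ⟨c, hc0, hcw⟩ := hB.conj_xg hTt (X.ι w) ⟨s, hs⟩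
    rw [hπ s hs]
    exact ⟨(X.σ w ⟨s, hs⟩ : Fin chevG2.nroots).2, c, hc0, fun t => hcw t⟩
  have hpr : ∀ a b (ha : a < 12) (hb : b < 12), chevG2.pairing (π a) (π b) = chevG2.pairing a b := by
    intro a b ha hb
    rw [hπ a ha, hπ b hb]
    exact X.rootAct.pr_inv w ⟨a, ha⟩ ⟨b, hb⟩
  have h9 : π 9 = 9 := fix9 hB hAct one_ne_zero hmain (hpr 9 10 (by norm_num) (by norm_num))
    (hpr 10 9 (by norm_num) (by norm_num))
  have hpos9 : chevG2.IsPosRoot 9 := by decide +kernel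
  have hfix : X.σ w ⟨9, hpos9.1⟩ = ⟨9, hpos9.1⟩ := by
    apply Fin.ext
    rw [← hπ 9 (by norm_num)]
    exact h9
  obtain ⟨h, hh, y, hy, e⟩ := mem_of_fix' (D := chevG2) (r := 9) (i0 := 0) hpos9
    (fun s hs => tab_dom ⟨s, hs.1⟩ hs) (by decide +kernel)
    (fun i hi hi0 => by
      have : i = 1 := by
        have : i < 2 := hi
        omega
      subst this
      decide +kernel) X (KK F)
    (fun i hi hi0 => by
      have : i = 1 := by
        have : i < 2 := hi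
        omega
      subst this
      exact ng_mem hB 1) _ w rfl hfix
  have e' : h₁ * n = h * y := e
  -- `u ∈ K`
  have hUm : Um chevG2 F (h₁ * n) ≤ KK F := by
    unfold Um
    rw [Subgroup.closure_le]
    rintro x ⟨r, τ, hr, hmap, hx⟩
    rw [hB.eq_xg hx]
    obtain ⟨hπr, η, hη, eη⟩ := hAct r hr.1
    have h1 : hB.xg (π r) (η * 1) ∈ chevG2.negUnipotent F := by
      rw [← eη]
      exact hmap ⟨hB.xg r 1, hB.xg_mem_root r 1, rfl⟩
    have hneg : chevG2.IsNegRoot (π r) := by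
      rcases pos_or_neg' hπr with hp | hn
      · exfalso
        have := eq_one_of_UV hB (hB.xg_mem_pos hp _) h1
        rw [hB.xg_eq_one_iff hπr] at this
        exact hη (by simpa using this)
      · exact hn
    have h2 := hpr r 9 hr.1 (by norm_num)
    rw [h9] at h2
    have h3 := tab_dom ⟨π r, hπr⟩ hneg
    have h4 : r = 6 := tab_six ⟨r, hr.1⟩ hr (by rw [← h2]; exact h3)
    rw [h4]
    exact x6_mem hB τ
  have huK : u ∈ KK F := by
    apply hUm
    have := Um_mul_le hB (n := h₁ * n) (inv_mem hh₁)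
    rw [inv_mul_cancel_left] at this
    exact this hu
  have hzK : y * u ∈ KK F := mul_mem hy huK
  have hg' : u₁ * h₁ * n * u = (u₁ * h) * (y * u) := by
    calc u₁ * h₁ * n * u = u₁ * (h₁ * n) * u := by group
      _ = _ := by rw [e']; group
  rw [hg'] at hc ⊢
  refine mul_mem ?_ hzK
  have hc2 : (u₁ * h) * hB.xg 9 1 * (u₁ * h)⁻¹ = hB.xg 9 1 := by
    have e1 := hKc _ hzK
    have e2 : (u₁ * h) * hB.xg 9 1 * (y * u) = hB.xg 9 1 * (u₁ * h) * (y * u) := by
      calc (u₁ * h) * hB.xg 9 1 * (y * u) = (u₁ * h) * (hB.xg 9 1 * (y * u)) := by group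
        _ = (u₁ * h) * (y * u) * hB.xg 9 1 := by rw [← e1]; group
        _ = hB.xg 9 1 * ((u₁ * h) * (y * u)) := hc
        _ = _ := by group
    rw [mul_right_cancel e2]; group
  obtain ⟨c, hc0, rfl⟩ := hB.exists_hprod hh
  have e1 := hB.hl_conj_xg c (s := 9) hpos9.1 (List.range chevG2.rank)
      (fun i hi => ⟨List.mem_range.mp hi, hc0 i (List.mem_range.mp hi)⟩) 1
  have hrange : List.range chevG2.rank = [0, 1] := by decide +kernel
  have hc09 : chevG2.cartan 0 9 = 1 := by decide +kernel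
  have hc19 : chevG2.cartan 1 9 = 0 := by decide +kernel
  have e3 : hB.hprod c * hB.xg 9 1 * (hB.hprod c)⁻¹ = T hB (c 0) 0 0 := by
    have : hB.hprod c * hB.xg 9 1 * (hB.hprod c)⁻¹ = _ := e1
    rw [this, hrange]
    simp [T, hc09, hc19]
  obtain ⟨d, hd⟩ := U_form hB hu₁
  rw [conj_mul, e3, hd, U_conj_T, tT] at hc2
  obtain ⟨f1, f2, f3⟩ := T_inj hB hc2
  rw [three_eq_one, f1] at f2 f3
  have d7 : d 7 = 0 := by simpa using f2
  have d8 : d 8 = 0 := by
    rw [d7] at f3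
    simpa using f3
  refine mul_mem ?_ ?_
  · rw [hd, d7, d8, hB.xg_zero, hB.xg_zero, one_mul, one_mul]
    exact mul_mem (x6_mem hB _) (mul_mem (x9_mem hB _) (mul_mem (x10_mem hB _) (x11_mem hB _)))
  · unfold Base.hprod Base.hl
    rw [hrange]
    simp only [List.map_cons, List.map_nil, List.prod_cons, List.prod_nil, mul_one, f1, Base.hg_one, one_mul]
    exact hg_mem' hB _

end Cfsg.Agent.Lib.Helper17.G2C
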