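import Cfsg.Agent.Lib.Helper17.G2Cent
import Cfsg.Agent.Lib.Helper36.ChevSyl

/-!
# The involutions of `G₂(q)`, `q` even (helper17)
-/

set_option autoImplicit false

namespace Cfsg.Agent.Lib.Helper17.G2I

open Cfsg.Lie Cfsg.Agent.Lib.Helper18 Cfsg.Agent.Lib.Helper17 Cfsg.Agent.Lib.Helper36
  Cfsg.Agent.Lib.Helper6 Matrix Cfsg.Agent.Lib.Helper17.G2C

variable {F : Type*} [Field F] (hB : Base chevG2 F)

theorem conj_word {r s : ℕ} (hr : r < chevG2.nroots) (hs : s < chevG2.nroots) (h1 : s ≠ r)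
    (h2 : s ≠ chevG2.neg r) (t u : F) :
    hB.xg r t * hB.xg s u * (hB.xg r t)⁻¹ = hB.xg s u * hB.wg (chevG2.commWord F r s (-t) u) := by
  have h3 := hB.comm_xg hr hs h1 h2 (-t) u
  rw [hB.xg_inv, neg_neg] at h3
  rw [hB.xg_inv]
  exact h3

section

variable [CharP F 2]

theorem two0 : (2 : F) = 0 := CharTwo.two_eq_zero

theorem K67 (t u : F) : hB.xg 6 t * hB.xg 7 u * (hB.xg 6 t)⁻¹ =
    hB.xg 7 u * hB.xg 8 (t * u) * T hB (t * u ^ 2) (t * u ^ 3) 0 := by
  have h := conj_word hB (r := 6) (s := 7) (by decide +kernel) (by decide +kernel) (by decide +kernel)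
    (by decide +kernel) t u
  have ht : chevG2.commTerms 6 7 = [(8, 1, 1, 1), (9, 1, 1, 2), (10, -1, 1, 3), (11, -2, 2, 3)] := by
    decide +kernel
  rw [h]
  unfold ChevalleyDatum.commWord
  rw [ht]
  simp only [List.map_cons, List.map_nil, Base.wg, List.prod_cons, List.prod_nil, neg_neg, mul_one]
  have h2 := two0 (F := F)
  have e1 : ((1 : ℤ) : F) * t ^ 1 * u ^ 1 = t * u := by push_cast; ring
  have e2 : ((1 : ℤ) : F) * t ^ 1 * u ^ 2 = t * u ^ 2 := by push_cast; ring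
  have e3 : ((-1 : ℤ) : F) * t ^ 1 * u ^ 3 = t * u ^ 3 := by
    push_cast; linear_combination (-(t * u ^ 3)) * h2
  have e4 : ((-2 : ℤ) : F) * t ^ 2 * u ^ 3 = 0 := by
    push_cast; linear_combination (-(t ^ 2 * u ^ 3)) * h2
  rw [e1, e2, e3, e4]
  simp only [T, mul_assoc]

theorem K76 (t u : F) : hB.xg 7 t * hB.xg 6 u * (hB.xg 7 t)⁻¹ =
    hB.xg 6 u * hB.xg 8 (t * u) * T hB (t ^ 2 * u) (t ^ 3 * u) (t ^ 3 * u ^ 2) := by
  have h := conj_word hB (r := 7) (s := 6) (by decide +kernel) (by decide +kernel) (by decide +kernel)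
    (by decide +kernel) t u
  have ht : chevG2.commTerms 7 6 = [(8, -1, 1, 1), (9, 1, 2, 1), (10, 1, 3, 1), (11, 1, 3, 2)] := by
    decide +kernel
  rw [h]
  unfold ChevalleyDatum.commWord
  rw [ht]
  simp only [List.map_cons, List.map_nil, Base.wg, List.prod_cons, List.prod_nil, neg_neg, mul_one]
  have h2 := two0 (F := F)
  have e1 : ((-1 : ℤ) : F) * t ^ 1 * u ^ 1 = t * u := by
    push_cast; linear_combination (-(t * u)) * h2
  have e2 : ((1 : ℤ) : F) * t ^ 2 * u ^ 1 = t ^ 2 * u := by push_cast; ring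
  have e3 : ((1 : ℤ) : F) * t ^ 3 * u ^ 1 = t ^ 3 * u := by push_cast; ring
  have e4 : ((1 : ℤ) : F) * t ^ 3 * u ^ 2 = t ^ 3 * u ^ 2 := by push_cast; ring
  rw [e1, e2, e3, e4]
  simp only [T, mul_assoc]

theorem K78 (t u : F) : hB.xg 7 t * hB.xg 8 u * (hB.xg 7 t)⁻¹ =
    hB.xg 8 u * T hB 0 (t ^ 2 * u) (t * u ^ 2) := by
  have h := conj_word hB (r := 7) (s := 8) (by decide +kernel) (by decide +kernel) (by decide +kernel)
    (by decide +kernel) t u
  have ht : chevG2.commTerms 7 8 = [(9, -2, 1, 1), (10, -3, 2, 1), (11, 3, 1, 2)] := by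
    decide +kernel
  rw [h]
  unfold ChevalleyDatum.commWord
  rw [ht]
  simp only [List.map_cons, List.map_nil, Base.wg, List.prod_cons, List.prod_nil, neg_neg, mul_one]
  have h2 := two0 (F := F)
  have e1 : ((-2 : ℤ) : F) * t ^ 1 * u ^ 1 = 0 := by
    push_cast; linear_combination (-(t * u)) * h2
  have e2 : ((-3 : ℤ) : F) * t ^ 2 * u ^ 1 = t ^ 2 * u := by
    push_cast; linear_combination (-2 * (t ^ 2 * u)) * h2
  have e3 : ((3 : ℤ) : F) * t ^ 1 * u ^ 2 = t * u ^ 2 := by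
    push_cast; linear_combination (t * u ^ 2) * h2
  rw [e1, e2, e3]
  simp only [T, mul_assoc]

theorem K87 (t u : F) : hB.xg 8 t * hB.xg 7 u * (hB.xg 8 t)⁻¹ =
    hB.xg 7 u * T hB 0 (t * u ^ 2) (t ^ 2 * u) := by
  have h := conj_word hB (r := 8) (s := 7) (by decide +kernel) (by decide +kernel) (by decide +kernel)
    (by decide +kernel) t u
  have ht : chevG2.commTerms 8 7 = [(9, 2, 1, 1), (11, 3, 2, 1), (10, -3, 1, 2)] := by
    decide +kernel
  rw [h]
  unfold ChevalleyDatum.commWord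
  rw [ht]
  simp only [List.map_cons, List.map_nil, Base.wg, List.prod_cons, List.prod_nil, neg_neg, mul_one]
  have h2 := two0 (F := F)
  have e1 : ((2 : ℤ) : F) * t ^ 1 * u ^ 1 = 0 := by
    push_cast; linear_combination (t * u) * h2
  have e2 : ((3 : ℤ) : F) * t ^ 2 * u ^ 1 = t ^ 2 * u := by
    push_cast; linear_combination (t ^ 2 * u) * h2
  have e3 : ((-3 : ℤ) : F) * t ^ 1 * u ^ 2 = t * u ^ 2 := by
    push_cast; linear_combination (-2 * (t * u ^ 2)) * h2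
  rw [e1, e2, e3, ← c10_11]
  simp only [T, mul_assoc]

theorem K97 (t u : F) : hB.xg 9 t * hB.xg 7 u * (hB.xg 9 t)⁻¹ = hB.xg 7 u * T hB 0 (t * u) 0 := by
  have h := conj_word hB (r := 9) (s := 7) (by decide +kernel) (by decide +kernel) (by decide +kernel)
    (by decide +kernel) t u
  have ht : chevG2.commTerms 9 7 = [(10, -3, 1, 1)] := by decide +kernel
  rw [h]
  unfold ChevalleyDatum.commWord
  rw [ht]
  simp only [List.map_cons, List.map_nil, Base.wg, List.prod_cons, List.prod_nil, neg_neg, mul_one]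
  have h2 := two0 (F := F)
  have e1 : ((-3 : ℤ) : F) * t ^ 1 * u ^ 1 = t * u := by
    push_cast; linear_combination (-2 * (t * u)) * h2
  rw [e1]
  simp [T]

theorem K106 (t u : F) : hB.xg 10 t * hB.xg 6 u * (hB.xg 10 t)⁻¹ = hB.xg 6 u * T hB 0 0 (t * u) := by
  have h := conj_word hB (r := 10) (s := 6) (by decide +kernel) (by decide +kernel) (by decide +kernel)
    (by decide +kernel) t u
  have ht : chevG2.commTerms 10 6 = [(11, -1, 1, 1)] := by decide +kernel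
  rw [h]
  unfold ChevalleyDatum.commWord
  rw [ht]
  simp only [List.map_cons, List.map_nil, Base.wg, List.prod_cons, List.prod_nil, neg_neg, mul_one]
  have h2 := two0 (F := F)
  have e1 : ((-1 : ℤ) : F) * t ^ 1 * u ^ 1 = t * u := by
    push_cast; linear_combination (-(t * u)) * h2
  rw [e1]
  simp [T]

theorem c6_8 (t u : F) : hB.xg 6 t * hB.xg 8 u = hB.xg 8 u * hB.xg 6 t :=
  comm_nil hB (by decide +kernel) (by decide +kernel) (by decide +kernel) (by decide +kernel) (by decide +kernel) t u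

theorem T_ext {a b c a' b' c' : F} (h1 : a = a') (h2 : b = b') (h3 : c = c') : T hB a b c = T hB a' b' c' := by
  rw [h1, h2, h3]

theorem TT (a b c a' b' c' : F) : T hB a b c * T hB a' b' c' = T hB (a + a') (b + b') (c + c') := by
  unfold T
  calc hB.xg 9 a * hB.xg 10 b * hB.xg 11 c * (hB.xg 9 a' * hB.xg 10 b' * hB.xg 11 c')
      = hB.xg 9 a * hB.xg 10 b * (hB.xg 11 c * hB.xg 9 a') * hB.xg 10 b' * hB.xg 11 c' := by group
    _ = hB.xg 9 a * (hB.xg 10 b * hB.xg 9 a') * (hB.xg 11 c * hB.xg 10 b') * hB.xg 11 c' := by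
        rw [← c9_11]; group
    _ = (hB.xg 9 a * hB.xg 9 a') * (hB.xg 10 b * hB.xg 10 b') * (hB.xg 11 c * hB.xg 11 c') := by
        rw [← c9_10, ← c10_11]; group
    _ = _ := by rw [hB.xg_add, hB.xg_add, hB.xg_add]

theorem of_conj {G : Type*} [Group G] {a b c : G} (h : a * b * a⁻¹ = c) : a * b = c * a := by
  rw [← h]; group

theorem m6 (t c α β : F) : hB.xg 6 t * T hB c α β = T hB c α (β + t * α) * hB.xg 6 t := of_conj (T6 hB t c α β)

theorem m7 (t c α β : F) : hB.xg 7 t * T hB c α β = T hB c (α + t * c) β * hB.xg 7 t := by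
  rw [of_conj (T7 hB t c α β), three_eq_one, one_mul]

theorem m8 (t c α β : F) : hB.xg 8 t * T hB c α β = T hB c α (β + t * c) * hB.xg 8 t := by
  rw [of_conj (T8 hB t c α β), three_eq_one, one_mul]

theorem m9 (t c α β : F) : hB.xg 9 t * T hB c α β = T hB c α β * hB.xg 9 t := of_conj (T9 hB t c α β)
theorem m10 (t c α β : F) : hB.xg 10 t * T hB c α β = T hB c α β * hB.xg 10 t := of_conj (T10 hB t c α β)

theorem xx (r : ℕ) (t : F) : hB.xg r t * hB.xg r t = 1 := by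
  rw [hB.xg_add, CharTwo.add_self_eq_zero, hB.xg_zero]

theorem xinv (r : ℕ) (t : F) : (hB.xg r t)⁻¹ = hB.xg r t := by
  rw [hB.xg_inv, CharTwo.neg_eq]

/-- left forms -/
theorem L78 (t u : F) : hB.xg 7 t * hB.xg 8 u * (hB.xg 7 t)⁻¹ = T hB 0 (t ^ 2 * u) (t * u ^ 2) * hB.xg 8 u := by
  rw [K78, m8]
  congr 1
  apply T_ext <;> ring

theorem s78 (t u : F) : hB.xg 7 t * hB.xg 8 u = T hB 0 (t ^ 2 * u) (t * u ^ 2) * hB.xg 8 u * hB.xg 7 t :=
  of_conj (L78 hB t u)

theorem L87 (t u : F) : hB.xg 8 t * hB.xg 7 u * (hB.xg 8 t)⁻¹ = T hB 0 (t * u ^ 2) (t ^ 2 * u) * hB.xg 7 u := by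
  rw [K87, m7]
  congr 1
  apply T_ext <;> ring

theorem L97 (t u : F) : hB.xg 9 t * hB.xg 7 u * (hB.xg 9 t)⁻¹ = T hB 0 (t * u) 0 * hB.xg 7 u := by
  rw [K97, m7]
  congr 1
  apply T_ext <;> ring

theorem L106 (t u : F) : hB.xg 10 t * hB.xg 6 u * (hB.xg 10 t)⁻¹ = T hB 0 0 (t * u) * hB.xg 6 u := by
  rw [K106, m6]
  congr 1
  apply T_ext <;> ring

theorem L67 (t u : F) : hB.xg 6 t * hB.xg 7 u * (hB.xg 6 t)⁻¹ =
    T hB (t * u ^ 2) (t * u ^ 3) 0 * hB.xg 8 (t * u) * hB.xg 7 u := by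
  have h2 := two0 (F := F)
  rw [K67, mul_assoc, m8, ← mul_assoc, m7, mul_assoc, s78, ← mul_assoc, ← mul_assoc, TT]
  congr 2
  apply T_ext
  · ring
  · linear_combination (t * u ^ 3) * h2
  · linear_combination (t ^ 2 * u ^ 3) * h2

theorem L76 (t u : F) : hB.xg 7 t * hB.xg 6 u * (hB.xg 7 t)⁻¹ =
    T hB (t ^ 2 * u) (t ^ 3 * u) (t ^ 3 * u ^ 2) * hB.xg 8 (t * u) * hB.xg 6 u := by
  have h2 := two0 (F := F)
  rw [K76, mul_assoc, m8, ← mul_assoc, m6, mul_assoc, c6_8, ← mul_assoc]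
  congr 2
  apply T_ext
  · ring
  · ring
  · linear_combination (t ^ 3 * u ^ 2) * h2

end

end Cfsg.Agent.Lib.Helper17.G2I
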