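import Cfsg.Agent.Lib.Helper17.G2Inv

/-!
# The involutions of `G₂(q)`, `q` even: reduction inside `U` (helper17)
-/

set_option autoImplicit false

namespace Cfsg.Agent.Lib.Helper17.G2I

open Cfsg.Lie Cfsg.Agent.Lib.Helper18 Cfsg.Agent.Lib.Helper17 Cfsg.Agent.Lib.Helper36
  Cfsg.Agent.Lib.Helper6 Matrix Cfsg.Agent.Lib.Helper17.G2C

variable {F : Type*} [Field F] (hB : Base chevG2 F)

/-- conjugate to one of the two representatives -/
def Good (g : GL chevG2.Idx F) : Prop :=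
  ∃ h ∈ chevG2.group F, h * g * h⁻¹ = hB.xg 11 1 ∨ h * g * h⁻¹ = hB.xg 9 1

theorem Good.of_eq {g g' h : GL chevG2.Idx F} (hh : h ∈ chevG2.group F) (e : h * g * h⁻¹ = g')
    (H : Good hB g') : Good hB g := by
  obtain ⟨k, hk, e'⟩ := H
  refine ⟨k * h, mul_mem hk hh, ?_⟩
  rw [G2C.conj_mul, e]
  exact e'

theorem cm {G : Type*} [Group G] (h a b : G) : h * (a * b) * h⁻¹ = (h * a * h⁻¹) * (h * b * h⁻¹) := by
  group

theorem xmem (r : ℕ) (hr : r < 12) (t : F) : hB.xg r t ∈ chevG2.group F := hB.xg_mem_group hr t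

theorem nmem (i : ℕ) (hi : i < 2) : hB.ng (chevG2.simple i) 1 ∈ chevG2.group F :=
  hB.ng_mem_group (tabs2_of_mem (D := chevG2) (by simp)).tab
    ((tabs2_of_mem (D := chevG2) (by simp)).tab.simple_lt i hi) 1

theorem X8T_inj {d a b c : F} (h : hB.xg 8 d * T hB a b c = 1) : d = 0 ∧ a = 0 ∧ b = 0 ∧ c = 0 := by
  obtain ⟨T', W, hc⟩ := exists_checks chevG2 (by simp)
  let f : ℕ → F := fun r => if r = 8 then d else if r = 9 then a else if r = 10 then b else c
  let f' : ℕ → F := fun r => 0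
  have e : ordProd chevG2 [8, 9, 10, 11] f = ordProd chevG2 [8, 9, 10, 11] f' := by
    have := congrArg (fun g : GL chevG2.Idx F => (g : Matrix chevG2.Idx chevG2.Idx F)) h
    simp only [T, Units.val_mul, Base.coe_xg, Units.val_one] at this
    simp only [ordProd_cons, ordProd_nil, mul_one, f, f', hB.x_zero]
    simpa [mul_assoc] using this
  have key := ordProd_inj hc (triOK_of_mem (by simp)) (ordOK_of_mem (by simp)) [8, 9, 10, 11]
    (by decide +kernel) (by decide) f f' e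
  refine ⟨?_, ?_, ?_, ?_⟩
  · simpa [f, f'] using key 8 (by simp)
  · simpa [f, f'] using key 9 (by simp)
  · simpa [f, f'] using key 10 (by simp)
  · simpa [f, f'] using key 11 (by simp)

theorem TX8_inj {d a b c : F} (h : T hB a b c * hB.xg 8 d = 1) : d = 0 ∧ a = 0 ∧ b = 0 ∧ c = 0 := by
  apply X8T_inj hB
  have : hB.xg 8 d * T hB a b c = hB.xg 8 d * (T hB a b c * hB.xg 8 d) * (hB.xg 8 d)⁻¹ := by group
  rw [this, h]; group

theorem good9 {t : F} (ht : t ≠ 0) : Good hB (hB.xg 9 t) := by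
  refine ⟨hB.hg 7 t⁻¹, hB.H_le_group (tabs2_of_mem (D := chevG2) (by simp)).tab
    (hB.hg_mem (by decide +kernel) (inv_ne_zero ht)), Or.inr ?_⟩
  rw [hB.hg_conj_xg (by decide +kernel) (by decide +kernel) (inv_ne_zero ht),
    show chevG2.pairing 7 9 = 1 from by decide +kernel, zpow_one, inv_mul_cancel₀ ht]

theorem good11 {t : F} (ht : t ≠ 0) : Good hB (hB.xg 11 t) := by
  refine ⟨hB.hg 6 t⁻¹, hB.H_le_group (tabs2_of_mem (D := chevG2) (by simp)).tab
    (hB.hg_mem (by decide +kernel) (inv_ne_zero ht)), Or.inl ?_⟩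
  rw [hB.hg_conj_xg (by decide +kernel) (by decide +kernel) (inv_ne_zero ht),
    show chevG2.pairing 6 11 = 1 from by decide +kernel, zpow_one, inv_mul_cancel₀ ht]

section

variable [CharP F 2]

theorem nconj (i s : ℕ) (hi : i < 2) (hs : s < 12) (t : F) :
    hB.ng (chevG2.simple i) 1 * hB.xg s t * (hB.ng (chevG2.simple i) 1)⁻¹
      = hB.xg (chevG2.reflectRoot i s) t := by
  obtain ⟨η, hη, h⟩ := hB.ng_conj_xg (i := i) (s := s) hi hs
  rw [(h t).1]
  rcases hη with rfl | rfl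
  · rw [one_mul]
  · rw [CharTwo.neg_eq, one_mul]

theorem na9 (t : F) : hB.ng (chevG2.simple 0) 1 * hB.xg 9 t * (hB.ng (chevG2.simple 0) 1)⁻¹ = hB.xg 8 t :=
  nconj hB 0 9 (by norm_num) (by norm_num) t
theorem na8 (t : F) : hB.ng (chevG2.simple 0) 1 * hB.xg 8 t * (hB.ng (chevG2.simple 0) 1)⁻¹ = hB.xg 9 t :=
  nconj hB 0 8 (by norm_num) (by norm_num) t
theorem na6 (t : F) : hB.ng (chevG2.simple 0) 1 * hB.xg 6 t * (hB.ng (chevG2.simple 0) 1)⁻¹ = hB.xg 10 t :=
  nconj hB 0 6 (by norm_num) (by norm_num) t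
theorem nb7 (t : F) : hB.ng (chevG2.simple 1) 1 * hB.xg 7 t * (hB.ng (chevG2.simple 1) 1)⁻¹ = hB.xg 8 t :=
  nconj hB 1 7 (by norm_num) (by norm_num) t
theorem nb8 (t : F) : hB.ng (chevG2.simple 1) 1 * hB.xg 8 t * (hB.ng (chevG2.simple 1) 1)⁻¹ = hB.xg 7 t :=
  nconj hB 1 8 (by norm_num) (by norm_num) t
theorem nb9 (t : F) : hB.ng (chevG2.simple 1) 1 * hB.xg 9 t * (hB.ng (chevG2.simple 1) 1)⁻¹ = hB.xg 9 t :=
  nconj hB 1 9 (by norm_num) (by norm_num) t
theorem nb10 (t : F) : hB.ng (chevG2.simple 1) 1 * hB.xg 10 t * (hB.ng (chevG2.simple 1) 1)⁻¹ = hB.xg 11 t :=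
  nconj hB 1 10 (by norm_num) (by norm_num) t
theorem nb11 (t : F) : hB.ng (chevG2.simple 1) 1 * hB.xg 11 t * (hB.ng (chevG2.simple 1) 1)⁻¹ = hB.xg 10 t :=
  nconj hB 1 11 (by norm_num) (by norm_num) t

theorem nbT (s v w : F) :
    hB.ng (chevG2.simple 1) 1 * T hB s v w * (hB.ng (chevG2.simple 1) 1)⁻¹ = T hB s w v := by
  unfold T
  rw [conj3, nb9, nb10, nb11, mul_assoc, ← c10_11, ← mul_assoc]

theorem C7 (t c α β : F) : hB.xg 7 t * T hB c α β * (hB.xg 7 t)⁻¹ = T hB c (α + t * c) β := by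
  rw [m7, mul_inv_cancel_right]

theorem C8 (t c α β : F) : hB.xg 8 t * T hB c α β * (hB.xg 8 t)⁻¹ = T hB c α (β + t * c) := by
  rw [m8, mul_inv_cancel_right]

theorem NF_exists {u : GL chevG2.Idx F} (hu : u ∈ chevG2.posUnipotent F) : ∃ s v w r q p : F,
    u = T hB s v w * hB.xg 8 r * hB.xg 7 q * hB.xg 6 p := by
  obtain ⟨c, hc⟩ := U_form hB (inv_mem hu)
  refine ⟨c 9, c 10, c 11, c 8, c 7, c 6, ?_⟩
  have : u = (u⁻¹)⁻¹ := (inv_inv u).symm
  rw [this, hc]
  simp only [_root_.mul_inv_rev, xinv]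
  congr 3
  unfold T
  rw [← c10_11, mul_assoc, ← c9_11, ← mul_assoc, ← c9_10]

theorem good7 {q : F} (hq : q ≠ 0) : Good hB (hB.xg 7 q) :=
  Good.of_eq hB (nmem hB 1 (by norm_num)) (nb7 hB q)
    (Good.of_eq hB (nmem hB 0 (by norm_num)) (na8 hB q) (good9 hB hq))

theorem T000 : T hB 0 0 0 = 1 := T_zero hB

theorem sq_exists [Finite F] (a : F) : ∃ y : F, y ^ 2 = a := by
  obtain ⟨y, hy⟩ := FiniteField.isSquare_of_char_two (ringChar.eq F 2) a
  exact ⟨y, by rw [hy, sq]⟩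

/-- Lemma A -/
theorem goodA [Finite F] {q : F} (hq : q ≠ 0) (v w : F) : Good hB (T hB 0 v w * hB.xg 7 q) := by
  have h2 := two0 (F := F)
  obtain ⟨y, hy⟩ := sq_exists (w / q)
  have e1 : hB.xg 8 y * (T hB 0 v w * hB.xg 7 q) * (hB.xg 8 y)⁻¹ = T hB 0 (v + y * q ^ 2) 0 * hB.xg 7 q := by
    rw [cm, C8, L87, ← mul_assoc, TT]
    congr 1
    apply T_ext
    · ring
    · ring
    · rw [hy]
      field_simp
      linear_combination w * h2
  refine Good.of_eq hB (xmem hB 8 (by norm_num) y) e1 ?_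
  have e2 : hB.xg 9 ((v + y * q ^ 2) / q) * (T hB 0 (v + y * q ^ 2) 0 * hB.xg 7 q) *
      (hB.xg 9 ((v + y * q ^ 2) / q))⁻¹ = hB.xg 7 q := by
    rw [cm, T9, L97, ← mul_assoc, TT]
    have : T hB (0 + 0) (v + y * q ^ 2 + (v + y * q ^ 2) / q * q) (0 + 0) = 1 := by
      rw [← T000 hB]
      apply T_ext
      · ring
      · field_simp
        linear_combination (v + y * q ^ 2) * h2
      · ring
    rw [this, one_mul]
  exact Good.of_eq hB (xmem hB 9 (by norm_num) _) e2 (good7 hB hq)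

theorem sq_conj {G : Type*} [Group G] {u h u' : G} (hu : u * u = 1) (e : h * u * h⁻¹ = u') : u' * u' = 1 := by
  rw [← e]
  calc h * u * h⁻¹ * (h * u * h⁻¹) = h * (u * u) * h⁻¹ := by group
    _ = 1 := by rw [hu]; group

/-- the square of `T x7 x6` -/
theorem sq76 (s v w q p : F) : (T hB s v w * hB.xg 7 q * hB.xg 6 p) * (T hB s v w * hB.xg 7 q * hB.xg 6 p) =
    T hB (q ^ 2 * p) (q * s + q ^ 3 * p) (p * v + q ^ 3 * p ^ 2) * hB.xg 8 (q * p) := by
  have h2 := two0 (F := F)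
  have e1 : hB.xg 7 q * hB.xg 6 p * hB.xg 7 q * hB.xg 6 p =
      T hB (q ^ 2 * p) (q ^ 3 * p) (q ^ 3 * p ^ 2) * hB.xg 8 (q * p) := by
    have := L76 hB q p
    rw [xinv] at this
    rw [this, mul_assoc, xx, mul_one]
  calc (T hB s v w * hB.xg 7 q * hB.xg 6 p) * (T hB s v w * hB.xg 7 q * hB.xg 6 p)
      = T hB s v w * hB.xg 7 q * (hB.xg 6 p * T hB s v w) * hB.xg 7 q * hB.xg 6 p := by group
    _ = T hB s v w * (hB.xg 7 q * T hB s v (w + p * v)) * hB.xg 6 p * hB.xg 7 q * hB.xg 6 p := by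
        rw [m6]; group
    _ = T hB s v w * T hB s (v + q * s) (w + p * v) * (hB.xg 7 q * hB.xg 6 p * hB.xg 7 q * hB.xg 6 p) := by
        rw [m7]; group
    _ = _ := by
        rw [e1, TT, ← mul_assoc, TT]
        congr 1
        apply T_ext
        · linear_combination s * h2
        · linear_combination v * h2
        · linear_combination w * h2

/-- Lemma B -/
theorem goodB [Finite F] {q : F} (hq : q ≠ 0) (s v w r p : F)
    (hu : (T hB s v w * hB.xg 8 r * hB.xg 7 q * hB.xg 6 p) * (T hB s v w * hB.xg 8 r * hB.xg 7 q * hB.xg 6 p) = 1) :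
    Good hB (T hB s v w * hB.xg 8 r * hB.xg 7 q * hB.xg 6 p) := by
  have h2 := two0 (F := F)
  obtain ⟨s', v', w', e1⟩ : ∃ s' v' w' : F, hB.xg 6 (r / q) * (T hB s v w * hB.xg 8 r * hB.xg 7 q * hB.xg 6 p) *
      (hB.xg 6 (r / q))⁻¹ = T hB s' v' w' * hB.xg 7 q * hB.xg 6 p := by
    refine ⟨s + r / q * q ^ 2, v + r / q * q ^ 3, w + r / q * v + (0 + r * (r / q * q ^ 2)), ?_⟩
    rw [cm, cm, cm, T6, L67]
    have e6 : hB.xg 6 (r / q) * hB.xg 6 p * (hB.xg 6 (r / q))⁻¹ = hB.xg 6 p := by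
      rw [hB.xg_add, add_comm, ← hB.xg_add, mul_inv_cancel_right]
    have e8 : hB.xg 6 (r / q) * hB.xg 8 r * (hB.xg 6 (r / q))⁻¹ = hB.xg 8 r := by
      rw [c6_8, mul_inv_cancel_right]
    rw [e6, e8]
    have e88 : hB.xg 8 r * hB.xg 8 (r / q * q) = 1 := by
      rw [div_mul_cancel₀ _ hq, xx]
    calc T hB s v (w + r / q * v) * hB.xg 8 r *
          (T hB (r / q * q ^ 2) (r / q * q ^ 3) 0 * hB.xg 8 (r / q * q) * hB.xg 7 q) * hB.xg 6 p
        = T hB s v (w + r / q * v) * (hB.xg 8 r * T hB (r / q * q ^ 2) (r / q * q ^ 3) 0) *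
          hB.xg 8 (r / q * q) * hB.xg 7 q * hB.xg 6 p := by group
      _ = T hB s v (w + r / q * v) * T hB (r / q * q ^ 2) (r / q * q ^ 3) (0 + r * (r / q * q ^ 2)) *
          (hB.xg 8 r * hB.xg 8 (r / q * q)) * hB.xg 7 q * hB.xg 6 p := by rw [m8]; group
      _ = _ := by rw [e88, mul_one, TT]
  refine Good.of_eq hB (xmem hB 6 (by norm_num) _) e1 ?_
  have hsq := sq_conj hu e1
  rw [sq76] at hsq
  obtain ⟨h8, h9, h10, h11⟩ := TX8_inj hB hsq
  have hp : p = 0 := by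
    rcases mul_eq_zero.mp h8 with h | h
    · exact absurd h hq
    · exact h
  subst hp
  have hs : s' = 0 := by
    have : q * s' = 0 := by linear_combination h10
    rcases mul_eq_zero.mp this with h | h
    · exact absurd h hq
    · exact h
  subst hs
  rw [hB.xg_zero, mul_one]
  exact goodA hB hq _ _

/-- Lemma C -/
theorem goodC [Finite F] {p : F} (hp : p ≠ 0) (s v w r : F)
    (hu : (T hB s v w * hB.xg 8 r * hB.xg 6 p) * (T hB s v w * hB.xg 8 r * hB.xg 6 p) = 1) :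
    Good hB (T hB s v w * hB.xg 8 r * hB.xg 6 p) := by
  have h2 := two0 (F := F)
  obtain ⟨s', v', w', e1⟩ : ∃ s' v' w' : F, hB.xg 7 (r / p) * (T hB s v w * hB.xg 8 r * hB.xg 6 p) *
      (hB.xg 7 (r / p))⁻¹ = T hB s' v' w' * hB.xg 6 p := by
    refine ⟨s + 0 + (r / p) ^ 2 * p, v + r / p * s + (r / p) ^ 2 * r + (r / p) ^ 3 * p,
      w + r / p * r ^ 2 + ((r / p) ^ 3 * p ^ 2 + r * ((r / p) ^ 2 * p)), ?_⟩
    rw [cm, cm, C7, L78, L76]
    have e88 : hB.xg 8 r * hB.xg 8 (r / p * p) = 1 := by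
      rw [div_mul_cancel₀ _ hp, xx]
    calc T hB s (v + r / p * s) w * (T hB 0 ((r / p) ^ 2 * r) (r / p * r ^ 2) * hB.xg 8 r) *
          (T hB ((r / p) ^ 2 * p) ((r / p) ^ 3 * p) ((r / p) ^ 3 * p ^ 2) * hB.xg 8 (r / p * p) * hB.xg 6 p)
        = T hB s (v + r / p * s) w * T hB 0 ((r / p) ^ 2 * r) (r / p * r ^ 2) *
          (hB.xg 8 r * T hB ((r / p) ^ 2 * p) ((r / p) ^ 3 * p) ((r / p) ^ 3 * p ^ 2)) *
          hB.xg 8 (r / p * p) * hB.xg 6 p := by group
      _ = T hB s (v + r / p * s) w * T hB 0 ((r / p) ^ 2 * r) (r / p * r ^ 2) *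
          T hB ((r / p) ^ 2 * p) ((r / p) ^ 3 * p) ((r / p) ^ 3 * p ^ 2 + r * ((r / p) ^ 2 * p)) *
          (hB.xg 8 r * hB.xg 8 (r / p * p)) * hB.xg 6 p := by rw [m8]; group
      _ = _ := by rw [e88, mul_one, TT, TT]
  refine Good.of_eq hB (xmem hB 7 (by norm_num) _) e1 ?_
  have hsq := sq_conj hu e1
  have hsq2 : T hB s' v' w' * hB.xg 6 p * (T hB s' v' w' * hB.xg 6 p) = T hB 0 0 (p * v') := by
    calc T hB s' v' w' * hB.xg 6 p * (T hB s' v' w' * hB.xg 6 p)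
        = T hB s' v' w' * (hB.xg 6 p * T hB s' v' w') * hB.xg 6 p := by group
      _ = T hB s' v' w' * T hB s' v' (w' + p * v') * (hB.xg 6 p * hB.xg 6 p) := by rw [m6]; group
      _ = _ := by
        rw [xx, mul_one, TT]
        apply T_ext
        · linear_combination s' * h2
        · linear_combination v' * h2
        · linear_combination w' * h2
  rw [hsq2, ← T000 hB] at hsq
  have hv : v' = 0 := by
    rcases mul_eq_zero.mp (T_inj hB hsq).2.2 with h | h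
    · exact absurd h hp
    · exact h
  subst hv
  have e2 : hB.xg 10 (w' / p) * (T hB s' 0 w' * hB.xg 6 p) * (hB.xg 10 (w' / p))⁻¹ =
      hB.xg 9 s' * hB.xg 6 p := by
    rw [cm, T10, L106, ← mul_assoc, TT]
    congr 1
    have : hB.xg 9 s' = T hB s' 0 0 := by simp [T]
    rw [this]
    apply T_ext
    · ring
    · ring
    · rw [div_mul_cancel₀ _ hp]
      linear_combination w' * h2
  refine Good.of_eq hB (xmem hB 10 (by norm_num) _) e2 ?_
  have e3 : hB.ng (chevG2.simple 0) 1 * (hB.xg 9 s' * hB.xg 6 p) * (hB.ng (chevG2.simple 0) 1)⁻¹ =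
      hB.xg 8 s' * hB.xg 10 p := by
    rw [cm, na9, na6]
  refine Good.of_eq hB (nmem hB 0 (by norm_num)) e3 ?_
  have e4 : hB.ng (chevG2.simple 1) 1 * (hB.xg 8 s' * hB.xg 10 p) * (hB.ng (chevG2.simple 1) 1)⁻¹ =
      T hB 0 0 p * hB.xg 7 s' := by
    rw [cm, nb8, nb10, c7_11]
    simp [T]
  refine Good.of_eq hB (nmem hB 1 (by norm_num)) e4 ?_
  by_cases hs : s' = 0
  · subst hs
    have : T hB 0 0 p * hB.xg 7 0 = hB.xg 11 p := by simp [T]
    rw [this]
    exact good11 hB hp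
  · exact goodA hB hs _ _

/-- Lemma D -/
theorem goodD [Finite F] {r : F} (hr : r ≠ 0) (s v w : F)
    (hu : (T hB s v w * hB.xg 8 r) * (T hB s v w * hB.xg 8 r) = 1) :
    Good hB (T hB s v w * hB.xg 8 r) := by
  have e1 : hB.ng (chevG2.simple 1) 1 * (T hB s v w * hB.xg 8 r) * (hB.ng (chevG2.simple 1) 1)⁻¹ =
      T hB s w v * hB.xg 8 0 * hB.xg 7 r * hB.xg 6 0 := by
    rw [cm, nbT, nb8]
    simp
  refine Good.of_eq hB (nmem hB 1 (by norm_num)) e1 ?_
  exact goodB hB hr _ _ _ _ _ (sq_conj hu e1)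

/-- Lemma E -/
theorem goodE (s v w : F) (hne : T hB s v w ≠ 1) : Good hB (T hB s v w) := by
  have h2 := two0 (F := F)
  by_cases hs : s = 0
  · subst hs
    by_cases hv : v = 0
    · subst hv
      have hw : w ≠ 0 := by
        rintro rfl
        exact hne (T000 hB)
      have : T hB 0 0 w = hB.xg 11 w := by simp [T]
      rw [this]
      exact good11 hB hw
    · have e1 : hB.xg 6 (w / v) * T hB 0 v w * (hB.xg 6 (w / v))⁻¹ = hB.xg 10 v := by
        rw [T6]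
        have : hB.xg 10 v = T hB 0 v 0 := by simp [T]
        rw [this]
        refine T_ext hB rfl rfl ?_
        rw [div_mul_cancel₀ _ hv]
        linear_combination w * h2
      refine Good.of_eq hB (xmem hB 6 (by norm_num) _) e1 ?_
      exact Good.of_eq hB (nmem hB 1 (by norm_num)) (nb10 hB v) (good11 hB hv)
  · have e1 : hB.xg 7 (v / s) * T hB s v w * (hB.xg 7 (v / s))⁻¹ = T hB s 0 w := by
      rw [C7]
      refine T_ext hB rfl ?_ rfl
      rw [div_mul_cancel₀ _ hs]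
      linear_combination v * h2
    refine Good.of_eq hB (xmem hB 7 (by norm_num) _) e1 ?_
    have e2 : hB.xg 8 (w / s) * T hB s 0 w * (hB.xg 8 (w / s))⁻¹ = hB.xg 9 s := by
      rw [C8]
      have : hB.xg 9 s = T hB s 0 0 := by simp [T]
      rw [this]
      refine T_ext hB rfl rfl ?_
      rw [div_mul_cancel₀ _ hs]
      linear_combination w * h2
    exact Good.of_eq hB (xmem hB 8 (by norm_num) _) e2 (good9 hB hs)

/-- every involution of `U` is good -/
theorem good_of_U [Finite F] {u : GL chevG2.Idx F} (hu : u ∈ chevG2.posUnipotent F) (h1 : u * u = 1)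
    (hne : u ≠ 1) : Good hB u := by
  obtain ⟨s, v, w, r, q, p, rfl⟩ := NF_exists hB hu
  by_cases hq : q = 0
  · subst hq
    rw [hB.xg_zero, mul_one] at h1 hne ⊢
    by_cases hp : p = 0
    · subst hp
      rw [hB.xg_zero, mul_one] at h1 hne ⊢
      by_cases hr : r = 0
      · subst hr
        rw [hB.xg_zero, mul_one] at h1 hne ⊢
        exact goodE hB _ _ _ hne
      · exact goodD hB hr _ _ _ h1
    · exact goodC hB hp _ _ _ _ h1
  · exact goodB hB hq _ _ _ _ _ h1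

end

end Cfsg.Agent.Lib.Helper17.G2I
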