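import Cfsg.Agent.Lib.Helper17.G2Inv2

/-!
# The involutions of `G₂(q)`, `q` even: the two classes (helper17)
-/

set_option autoImplicit false

namespace Cfsg.Agent.Lib.Helper17.G2I

open Cfsg.Lie Cfsg.Agent.Lib.Helper18 Cfsg.Agent.Lib.Helper17 Cfsg.Agent.Lib.Helper36
  Cfsg.Agent.Lib.Helper6 Matrix Cfsg.Agent.Lib.Helper17.G2C Pointwise

variable {F : Type*} [Field F]

theorem conj_into_U [Fintype F] [CharP F 2] {g : GL chevG2.Idx F} (hg : g ∈ chevG2.group F)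
    (ho : orderOf g = 2) : ∃ h ∈ chevG2.group F, h * g * h⁻¹ ∈ chevG2.posUnipotent F := by
  have : Fact (Nat.Prime 2) := ⟨Nat.prime_two⟩
  obtain ⟨P, hP⟩ := exists_sylow_U (F := F) (D := chevG2) 2 (by simp)
  let g' : ↥(chevG2.group F) := ⟨g, hg⟩
  have hpg : IsPGroup 2 (Subgroup.zpowers g') := by
    apply IsPGroup.of_card (n := 1)
    rw [Nat.card_zpowers, pow_one, ← ho]
    exact Subgroup.orderOf_mk g hg
  obtain ⟨Q, hQ⟩ := hpg.exists_le_sylow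
  obtain ⟨k, hk⟩ := MulAction.exists_smul_eq ↥(chevG2.group F) Q P
  refine ⟨k, k.2, ?_⟩
  have h1 : g' ∈ (Q : Subgroup _) := hQ (Subgroup.mem_zpowers g')
  have h2 : MulAut.conj k • g' ∈ MulAut.conj k • (Q : Subgroup ↥(chevG2.group F)) :=
    Subgroup.smul_mem_pointwise_smul _ _ _ h1
  rw [← Sylow.pointwise_smul_def, ← Sylow.smul_def, hk, hP, Subgroup.mem_subgroupOf] at h2
  simpa [MulAut.smul_def, MulAut.conj_apply] using h2

variable (hB : Base chevG2 F)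

theorem form_of (a b c : F) {i j : ℕ} (hi : i = 10 ∨ i = 11) (hj : j = 10 ∨ j = 11) :
    ∃ α β : F, hB.xg 9 a * hB.xg i b * hB.xg j c = T hB a α β := by
  rcases hi with rfl | rfl <;> rcases hj with rfl | rfl
  · exact ⟨b + c, 0, by rw [mul_assoc, hB.xg_add]; simp [T]⟩
  · exact ⟨b, c, rfl⟩
  · exact ⟨c, b, by rw [mul_assoc, ← c10_11, ← mul_assoc]; rfl⟩
  · exact ⟨0, b + c, by rw [mul_assoc, hB.xg_add]; simp [T]⟩

theorem tab_three : ∀ s : Fin 12, chevG2.pairing 9 s = 3 → s.val = 10 ∨ s.val = 11 := by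
  decide +kernel

include hB in
theorem not_conj [CharP F 2] {h : GL chevG2.Idx F} (hh : h ∈ chevG2.group F)
    (e : h * hB.xg 11 1 * h⁻¹ = hB.xg 9 1) : False := by
  have hD : chevG2 ∈ [chevG2, chevB2, chevD4, chevF4, chevE6, chevE7, chevE8] := by simp
  have hT := tabs2_of_mem hD
  have hTt := hT.tab
  let X := bnData_of_mem F hD
  obtain ⟨b, hb, n, hn, u, hu, rfl⟩ := X.bruhat_normal_exists hh
  obtain ⟨u₁, hu₁, h₁, hh₁, rfl⟩ := hB.mem_B_iff.mp hb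
  have hu' := Um_le_U n hu
  have hn' : (h₁ * n)⁻¹ ∈ chevG2.monomialSubgroup F := inv_mem (mul_mem (Base.H_le_N hh₁) hn)
  have tT : hB.xg 9 1 = T hB 1 0 0 := by simp [T]
  have tT' : hB.xg 11 1 = T hB 0 0 1 := by simp [T]
  have ea : u * hB.xg 11 1 * u⁻¹ = T hB 0 0 1 := by
    obtain ⟨d, hd⟩ := U_form hB hu'
    rw [hd, tT', U_conj_T]
    apply T_ext <;> ring
  obtain ⟨α', β', ea'⟩ : ∃ α β : F, u₁⁻¹ * hB.xg 9 1 * u₁ = T hB 1 α β := by
    obtain ⟨d, hd⟩ := U_form hB (inv_mem hu₁)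
    have : u₁⁻¹ * hB.xg 9 1 * u₁ = u₁⁻¹ * hB.xg 9 1 * (u₁⁻¹)⁻¹ := by rw [inv_inv]
    rw [this, hd, tT, U_conj_T]
    exact ⟨_, _, rfl⟩
  have hmain : (h₁ * n)⁻¹ * T hB 1 α' β' * ((h₁ * n)⁻¹)⁻¹ = T hB 0 0 1 := by
    rw [← ea, ← ea', ← e]
    group
  let w : ↥X.P.N := ⟨⟨(h₁ * n)⁻¹, hB.N_le_group hTt hn'⟩, (X.mem_N_iff _).2 hn'⟩
  let π : ℕ → ℕ := fun s => if h : s < 12 then (X.σ w ⟨s, h⟩ : Fin chevG2.nroots).val else 0
  have hπ : ∀ s (h : s < 12), π s = (X.σ w ⟨s, h⟩ : Fin chevG2.nroots).val := by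
    intro s h
    simp only [π, dif_pos h]
  have hAct : Act hB (h₁ * n)⁻¹ π := by
    intro s hs
    obtain ⟨c, hc0, hcw⟩ := hB.conj_xg hTt (X.ι w) ⟨s, hs⟩
    rw [hπ s hs]
    exact ⟨(X.σ w ⟨s, hs⟩ : Fin chevG2.nroots).2, c, hc0, fun t => hcw t⟩
  have hpr : ∀ a b (ha : a < 12) (hb : b < 12), chevG2.pairing (π a) (π b) = chevG2.pairing a b := by
    intro a b ha hb
    rw [hπ a ha, hπ b hb]
    exact X.rootAct.pr_inv w ⟨a, ha⟩ ⟨b, hb⟩
  have h9 : π 9 = 9 := fix9 hB hAct one_ne_zero hmain (hpr 9 10 (by norm_num) (by norm_num))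
    (hpr 10 9 (by norm_num) (by norm_num))
  obtain ⟨l9, η9, hη9, e9⟩ := hAct 9 (by norm_num)
  obtain ⟨l10, η10, -, e10⟩ := hAct 10 (by norm_num)
  obtain ⟨l11, η11, -, e11⟩ := hAct 11 (by norm_num)
  have h10 : π 10 = 10 ∨ π 10 = 11 := by
    have := hpr 9 10 (by norm_num) (by norm_num)
    rw [h9] at this
    exact tab_three ⟨π 10, l10⟩ (by rw [this]; decide +kernel)
  have h11 : π 11 = 10 ∨ π 11 = 11 := by
    have := hpr 9 11 (by norm_num) (by norm_num)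
    rw [h9] at this
    exact tab_three ⟨π 11, l11⟩ (by rw [this]; decide +kernel)
  have hm2 := hmain
  unfold T at hm2
  rw [conj3, e9, e10, e11, h9] at hm2
  obtain ⟨α, β, ef⟩ := form_of hB (η9 * 1) (η10 * α') (η11 * β') h10 h11
  rw [ef] at hm2
  have := (T_inj hB (hm2.trans (by rfl : _ = T hB 0 0 1))).1
  exact hη9 (by simpa using this)

end Cfsg.Agent.Lib.Helper17.G2I
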